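import Cfsg.Agent.Lib.Forms.UnitaryStd
import Cfsg.Agent.Lib.Forms.UnitarySiegel
import Cfsg.Agent.Lib.Forms.UnitaryMax
import Cfsg.Agent.Lib.Forms.UnitaryPair

/-!
Root elements at an isotropic point of a unitary space inside a subgroup.
-/

set_option autoImplicit false

namespace Cfsg.Agent.Lib.SURegGen

open Matrix Cfsg.Geo Cfsg.Agent.Lib.Forms

variable {F : Type*} [Field F] {n : ℕ}

abbrev Vec (n : ℕ) (F : Type*) := Fin n → F
abbrev GG (n : ℕ) (F : Type*) [Field F] := GL (Fin n) F

/-- action on vectors -/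
abbrev ap (g : GG n F) (x : Vec n F) : Vec n F := (g : Matrix (Fin n) (Fin n) F) *ᵥ x

variable {σ : F ≃+* F} {h : Vec n F → Vec n F → F} (H : IsUnitaryForm σ h)

theorem ap_mul (g g' : GG n F) (x : Vec n F) : ap (g * g') x = ap g (ap g' x) := mul_mulVec' g g' x

theorem ap_inv (g : GG n F) {x y : Vec n F} (hg : ap g x = y) : ap g⁻¹ y = x := by
  rw [← hg]; exact inv_mulVec_mulVec g x

theorem ext_ap {g g' : GG n F} (e : ∀ x, ap g x = ap g' x) : g = g' := gl_ext e

theorem ap_add (g : GG n F) (x y : Vec n F) : ap g (x + y) = ap g x + ap g y := Matrix.mulVec_add _ _ _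

theorem ap_sub (g : GG n F) (x y : Vec n F) : ap g (x - y) = ap g x - ap g y := Matrix.mulVec_sub _ _ _

theorem ap_smul (g : GG n F) (t : F) (x : Vec n F) : ap g (t • x) = t • ap g x := Matrix.mulVec_smul _ _ _

theorem ap_neg (g : GG n F) (x : Vec n F) : ap g (-x) = -ap g x := Matrix.mulVec_neg _ _

theorem ap_zero (g : GG n F) : ap g 0 = 0 := Matrix.mulVec_zero _

theorem ap_one (x : Vec n F) : ap (1 : GG n F) x = x := by simp [ap]

include H

theorem h_ap {g : GG n F} (hg : g ∈ isoH h) (x y : Vec n F) : h (ap g x) (ap g y) = h x y := hg x y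

theorem S_ap {v z : Vec n F} (hv0 : h v v = 0) (hvz : h v z = 0) (c : F) (y : Vec n F) :
    ap (usieg h v z c) y = y + (c * h y v + h y z) • v - h y v • z :=
  usieg_mulVec H hv0 hvz c y

theorem S_conj {g : GG n F} (hg : g ∈ isoH h) {v z : Vec n F} (hv0 : h v v = 0) (hvz : h v z = 0)
    (c : F) : g * usieg h v z c * g⁻¹ = usieg h (ap g v) (ap g z) c := by
  have h1 : h (ap g v) (ap g v) = 0 := by rw [h_ap H hg]; exact hv0
  have h2 : h (ap g v) (ap g z) = 0 := by rw [h_ap H hg]; exact hvz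
  refine ext_ap fun y => ?_
  rw [ap_mul, ap_mul, S_ap H hv0 hvz, S_ap H h1 h2]
  have e : ∀ w, h (ap g⁻¹ y) w = h y (ap g w) := fun w => by
    rw [← h_ap H hg (ap g⁻¹ y) w, ← ap_mul, mul_inv_cancel, ap_one]
  rw [ap_sub, ap_add, ap_smul, ap_smul, ← ap_mul, mul_inv_cancel, ap_one, e, e]

theorem S_zero_eq {v : Vec n F} (hv0 : h v v = 0) (c : F) :
    usieg h v 0 c = tv v (c • hv h v) := by
  refine ext_ap fun y => ?_
  rw [S_ap H hv0 (herm_zero_right H v), herm_zero_right H]
  simp only [ap, utv_mulVec H hv0]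
  simp

theorem S_mul {v x x' : Vec n F} (hv0 : h v v = 0) (hx : h v x = 0) (hx' : h v x' = 0) (c c' : F) :
    usieg h v x c * usieg h v x' c' = usieg h v (x + x') (c + c' - h x' x) := by
  refine ext_ap fun y => ?_
  have h1 := eq_zero_of_herm_self H hx
  have h2 := eq_zero_of_herm_self H hx'
  rw [ap_mul, S_ap H hv0 hx', S_ap H hv0 hx, S_ap H hv0 (by rw [herm_add_right H, hx, hx', add_zero])]
  simp only [herm_sub_left H, H.add_left, H.smul_left, herm_add_right H, hv0, hx, h2]
  module

/-- `usieg e₀ x c` lies in `M` -/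
def SG (σ : F ≃+* F) (h : Vec n F → Vec n F → F) (e₀ : Vec n F) (M : Subgroup (GG n F))
    (x : Vec n F) (c : F) : Prop :=
  h e₀ x = 0 ∧ c + σ c + h x x = 0 ∧ usieg h e₀ x c ∈ M

variable {e₀ : Vec n F} (he : h e₀ e₀ = 0) {M : Subgroup (GG n F)}
include he

theorem SG.zero : SG σ h e₀ M 0 0 :=
  ⟨herm_zero_right H _, by simp [herm_zero_right H], by
    rw [S_zero_eq H he, show tv e₀ ((0 : F) • hv h e₀) = 1 from ext_ap fun y => by
      simp only [ap]; rw [utv_mulVec H he]; simp]
    exact one_mem M⟩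

theorem SG.add {x x' : Vec n F} {c c' : F} (a : SG σ h e₀ M x c) (b : SG σ h e₀ M x' c') :
    SG σ h e₀ M (x + x') (c + c' - h x' x) := by
  refine ⟨by rw [herm_add_right H, a.1, b.1, add_zero], ?_, S_mul H he a.1 b.1 c c' ▸ mul_mem a.2.2 b.2.2⟩
  simp only [map_sub, map_add, H.add_left, herm_add_right H, ← H.herm]
  linear_combination a.2.1 + b.2.1

theorem SG.neg {x : Vec n F} {c : F} (a : SG σ h e₀ M x c) :
    SG σ h e₀ M (-x) (-c - h x x) := by
  have h1 : h e₀ (-x) = 0 := by rw [herm_neg_right H, a.1, neg_zero]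
  refine ⟨h1, ?_, ?_⟩
  · simp only [map_sub, map_neg, herm_neg_left H, herm_neg_right H, ← H.herm]
    linear_combination -1 * a.2.1
  have e : usieg h e₀ x c * usieg h e₀ (-x) (-c - h x x) = 1 := by
    rw [S_mul H he a.1 h1, add_neg_cancel, herm_neg_left H]
    refine ext_ap fun y => ?_
    rw [S_ap H he (herm_zero_right H _), herm_zero_right H, ap_one,
      show c + (-c - h x x) - -h x x = 0 by ring]
    simp
  rw [← inv_eq_of_mul_eq_one_right e]
  exact inv_mem a.2.2

theorem SG.shift {x : Vec n F} {c k : F} (a : SG σ h e₀ M (x + k • e₀) c) :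
    SG σ h e₀ M x (c + σ k - k) := by
  have hx : h e₀ x = 0 := by
    have := a.1; rwa [herm_add_right H, herm_smul_right H, he, mul_zero, add_zero] at this
  refine ⟨hx, ?_, ?_⟩
  · have h2 := a.2.1
    simp only [H.add_left, H.smul_left, herm_add_right H, herm_smul_right H, he, hx,
      eq_zero_of_herm_self H hx] at h2
    simp only [map_sub, map_add, H.involutive]
    linear_combination h2
  have e : usieg h e₀ (x + k • e₀) c = usieg h e₀ x (c + σ k - k) := by
    refine ext_ap fun y => ?_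
    rw [S_ap H he a.1, S_ap H he hx, herm_add_right H, herm_smul_right H]
    module
  exact e ▸ a.2.2

/-- the commutator with an element fixing `e₀` -/
theorem SG.diff {g : GG n F} (hg : g ∈ M) (hgi : g ∈ isoH h) (hge : ap g e₀ = e₀)
    {x : Vec n F} {c : F} (a : SG σ h e₀ M x c) : SG σ h e₀ M (ap g x - x) (h x (ap g x - x)) := by
  have h1 : SG σ h e₀ M (ap g x) c := ⟨by
      conv_lhs => rw [← hge]
      rw [h_ap H hgi]; exact a.1, by rw [h_ap H hgi]; exact a.2.1, by
      have := S_conj H hgi he a.1 c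
      rw [hge] at this
      rw [← this]; exact mul_mem (mul_mem hg a.2.2) (inv_mem hg)⟩
  have := SG.add H he h1 (SG.neg H he a)
  rw [← sub_eq_add_neg] at this
  convert this using 1
  rw [herm_neg_left H, herm_sub_right H]; ring

/-- all skew coefficients are available -/
theorem skew_of_lines (hl : ∀ t : F, SG σ h e₀ M (t • e₀) 0) {c : F} (hc : c + σ c = 0) :
    SG σ h e₀ M 0 c := by
  obtain ⟨x, hx⟩ := exists_trace_eq H (a := (1 : F)) (map_one σ)
  have hσc : σ c = -c := eq_neg_of_add_eq_zero_right hc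
  have h1 : SG σ h e₀ M (0 + (-(c * x)) • e₀) 0 := by rw [zero_add]; exact hl _
  have := SG.shift H he h1
  convert this using 1
  rw [map_neg, map_mul, hσc]
  linear_combination (-c) * hx

omit he in
/-- the vectors whose whole line is available -/
def lines (he : h e₀ e₀ = 0) (M : Subgroup (GG n F)) : Submodule F (Vec n F) where
  carrier := {x | ∀ t : F, ∃ c, SG σ h e₀ M (t • x) c}
  zero_mem' t := ⟨0, by rw [smul_zero]; exact SG.zero H he⟩
  add_mem' {a b} ha hb t := by
    obtain ⟨c, hc⟩ := ha t; obtain ⟨d, hd⟩ := hb t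
    exact ⟨_, by rw [smul_add]; exact SG.add H he hc hd⟩
  smul_mem' s x hx t := by rw [smul_smul]; exact hx (t * s)

theorem lines_ap {g : GG n F} (hg : g ∈ M) (hgi : g ∈ isoH h) (hge : ap g e₀ = e₀)
    {x : Vec n F} (hx : x ∈ lines H he M) : ap g x ∈ lines H he M := by
  intro t
  obtain ⟨c, hc⟩ := hx t
  have := SG.add H he (SG.diff H he hg hgi hge hc) hc
  rw [sub_add_cancel, ap_smul] at this
  exact ⟨_, this⟩

/-- endgame -/
theorem iso_le [Finite F] (hn : 4 ≤ n) (hA : ∀ c, c + σ c = 0 → SG σ h e₀ M 0 c)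
    (hL : ∀ x, h x e₀ = 0 → x ∈ lines H he M)
    (hy : ∃ g ∈ M, g ∈ isoH h ∧ h (ap g e₀) e₀ ≠ 0) :
    isoH h ⊓ specialLinear (Fin n) F ≤ M := by
  have hA' : e₀ ∈ ucentres σ h M := ⟨he, fun c hc => by rw [← S_zero_eq H he]; exact (hA c hc).2.2⟩
  have h2 : ∀ x c, h e₀ x = 0 → c + σ c + h x x = 0 → usieg h e₀ x c ∈ M := fun x c hx hc => by
    obtain ⟨d, hd⟩ := hL x (eq_zero_of_herm_self H hx) 1
    rw [one_smul] at hd
    have hsk : (c - d) + σ (c - d) = 0 := by
      rw [map_sub]; linear_combination hc - hd.2.1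
    have := SG.add H he hd (hA _ hsk)
    rw [add_zero, herm_zero_left H, sub_zero, add_sub_cancel] at this
    exact this.2.2
  obtain ⟨g, hgM, hgi, hg⟩ := hy
  set y := ap g e₀
  have hyy : h y y = 0 := by rw [h_ap H hgi]; exact he
  have hyc : y ∈ ucentres σ h M := mulVec_mem_ucentres H hgM hgi hA'
  set b := h y e₀
  have hoff : ∀ p, h p p = 0 → h p e₀ ≠ 0 → p ∈ ucentres σ h M := by
    intro p hpp hp
    set p' := (b / h p e₀) • p with hp'
    have hb' : h p' e₀ = b := by rw [hp', H.smul_left, div_mul_cancel₀ _ hp]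
    have hpp' : h p' p' = 0 := by rw [hp', smul_inner H, hpp, mul_zero]
    set x := b⁻¹ • (y - p') with hx
    have hxe : h x e₀ = 0 := by rw [hx, H.smul_left, herm_sub_left H, hb', sub_self, mul_zero]
    have hex : h e₀ x = 0 := eq_zero_of_herm_self H hxe
    set c := -(h y x) / b with hc
    have hcond : c + σ c + h x x = 0 := by
      have hb0 : b ≠ 0 := hg
      have hσb : σ b ≠ 0 := by simpa using hg
      rw [hc, hx, map_div₀, map_neg, ← H.herm, smul_inner H, herm_smul_right H, H.smul_left,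
        map_inv₀]
      simp only [herm_sub_right H, herm_sub_left H, hyy, hpp']
      field_simp
      ring
    have key : ap (usieg h e₀ x c) y = p' := by
      rw [S_ap H he hex]
      change y + (c * b + h y x) • e₀ - b • x = p'
      rw [hc, div_mul_cancel₀ _ hg, neg_add_cancel, zero_smul, add_zero, hx, smul_smul,
        mul_inv_cancel₀ hg, one_smul, sub_sub_cancel]
    have hp'c : p' ∈ ucentres σ h M := by
      rw [← key]
      exact mulVec_mem_ucentres H (h2 x _ hex hcond) (usieg_mem H he hex hcond).1 hyc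
    have : p = (h p e₀ / b) • p' := by
      rw [hp', smul_smul, div_mul_div_comm, mul_comm, div_self (mul_ne_zero hg hp), one_smul]
    rw [this]; exact smul_mem_ucentres H _ hp'c
  refine iso_sl_le_of_ucentres H (by simpa using hn) fun p hpp => ?_
  by_cases hp : h p e₀ = 0
  · by_cases hp0 : p = 0
    · subst hp0
      refine ⟨hpp, fun c _ => ?_⟩
      rw [show tv (0 : Vec n F) (c • hv h 0) = 1 from ext_ap fun x => by
        simp only [ap]; rw [utv_mulVec H hpp]; simp]
      exact one_mem M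
    obtain ⟨κ, hκ0, hκ⟩ := exists_skew H
    obtain ⟨r, hrr, hr1, hr2⟩ : ∃ r, h r r = 0 ∧ h r e₀ ≠ 0 ∧ h p r ≠ 0 := by
      by_cases h3 : h p y ≠ 0
      · exact ⟨y, hyy, hg, h3⟩
      push_neg at h3
      obtain ⟨x₀, hx₀⟩ := (H.nondegenerate p hp0).2
      have hx₀' : h p x₀ ≠ 0 := by simpa using hx₀
      obtain ⟨s, hs⟩ := exists_isotropic_translate H hpp hx₀'
      set r₁ := x₀ + s • p
      have hr₁ : h p r₁ ≠ 0 := by
        rw [herm_add_right H, herm_smul_right H, hpp, mul_zero, add_zero]; exact hx₀'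
      by_cases h1 : h r₁ e₀ ≠ 0
      · exact ⟨r₁, hs, h1, hr₁⟩
      push_neg at h1
      obtain ⟨τ, hτ0, hτ⟩ : ∃ τ : F, τ ≠ 0 ∧ τ * h r₁ y + σ (τ * h r₁ y) = 0 := by
        by_cases h4 : h r₁ y = 0
        · exact ⟨1, one_ne_zero, by simp [h4]⟩
        · exact ⟨κ / h r₁ y, div_ne_zero hκ0 h4, by rw [div_mul_cancel₀ _ h4]; exact hκ⟩
      refine ⟨y + τ • r₁, ?_, ?_, ?_⟩
      · rw [map_mul, ← H.herm] at hτ
        simp only [H.add_left, H.smul_left, herm_add_right H, herm_smul_right H, hyy, hs]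
        linear_combination hτ
      · rw [H.add_left, H.smul_left, h1, mul_zero, add_zero]; exact hg
      · rw [herm_add_right H, herm_smul_right H, h3, zero_add]
        exact mul_ne_zero (by simpa using hτ0) hr₁
    have hrp : h r p ≠ 0 := fun e => hr2 (eq_zero_of_herm_self H e)
    set t := κ / h r p
    set u := p - t • r with hu
    have huu : h u u = 0 := by
      have htσ : t * h r p + σ t * h p r = 0 := by
        rw [show h p r = σ (h r p) from H.herm p r, ← map_mul, div_mul_cancel₀ _ hrp]; exact hκ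
      simp only [hu, herm_sub_left H, herm_sub_right H, H.smul_left, herm_smul_right H, hpp, hrr]
      linear_combination -1 * htσ
    have hue : h u e₀ ≠ 0 := by
      rw [hu, herm_sub_left H, H.smul_left, hp, zero_sub]
      exact neg_ne_zero.2 (mul_ne_zero (div_ne_zero hκ0 hrp) hr1)
    have hur : h u r ≠ 0 := by rw [hu, herm_sub_left H, H.smul_left, hrr, mul_zero, sub_zero]; exact hr2
    have := add_smul_mem_ucentres H (hoff u huu hue) (hoff r hrr hr1) hur (t := t)
      (by rw [hu, sub_add_cancel]; exact hpp)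
    rwa [hu, sub_add_cancel] at this
  · exact hoff p hpp hp

omit he in
/-- the submodule of vectors all whose `M`-images are orthogonal to `e₀` -/
def perpCore (e₀ : Vec n F) (M : Subgroup (GG n F)) : Submodule F (Vec n F) where
  carrier := {x | ∀ g ∈ M, h (ap g x) e₀ = 0}
  zero_mem' g _ := by rw [ap_zero, herm_zero_left H]
  add_mem' {a b} ha hb g hg := by rw [ap_add, H.add_left, ha g hg, hb g hg, add_zero]
  smul_mem' s x hx g hg := by rw [ap_smul, H.smul_left, hx g hg, mul_zero]

omit he in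
theorem perpCore_ap {g : GG n F} (hg : g ∈ M) {x : Vec n F} (hx : x ∈ perpCore H e₀ M) :
    ap g x ∈ perpCore H e₀ M := fun g' hg' => by rw [← ap_mul]; exact hx _ (mul_mem hg' hg)

end Cfsg.Agent.Lib.SURegGen
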