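import Cfsg.Agent.Lib.SURegGen.Basic

/-!
Frames of odd-dimensional unitary spaces and their regular unipotent elements.
-/

set_option autoImplicit false

namespace Cfsg.Agent.Lib.SURegGen

open Matrix Cfsg.Geo Cfsg.Agent.Lib.Forms

variable {F : Type*} [Field F] {n : ℕ} {σ : F ≃+* F} {h : Vec n F → Vec n F → F}

/-- hyperbolic pairs `(e i, f i)`, `i < m`, and a unit vector `g` orthogonal to them -/
structure Sys (h : Vec n F → Vec n F → F) (m : ℕ) (e f : ℕ → Vec n F) (g : Vec n F) : Prop where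
  ee : ∀ i j, h (e i) (e j) = 0
  ff : ∀ i j, h (f i) (f j) = 0
  ef : ∀ i j, h (e i) (f j) = if i = j ∧ i < m then 1 else 0
  fe : ∀ i j, h (f i) (e j) = if i = j ∧ i < m then 1 else 0
  eg : ∀ i, h (e i) g = 0
  ge : ∀ i, h g (e i) = 0
  fg : ∀ i, h (f i) g = 0
  gf : ∀ i, h g (f i) = 0
  gg : h g g = 1
  e_out : ∀ i, m ≤ i → e i = 0
  f_out : ∀ i, m ≤ i → f i = 0

variable (H : IsUnitaryForm σ h) {m : ℕ} {e f : ℕ → Vec n F} {g : Vec n F} (S : Sys h m e f g)

/-- the linear functional `x ↦ h x v` -/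
def hlin (v : Vec n F) : Vec n F →ₗ[F] F where
  toFun x := h x v
  map_add' a b := H.add_left a b v
  map_smul' c a := H.smul_left c a v

/-- the linear map sending the system to another one -/
def sysMap (e f : ℕ → Vec n F) (g : Vec n F) (m : ℕ) (e' f' : ℕ → Vec n F) (g' : Vec n F) :
    Vec n F →ₗ[F] Vec n F :=
  ∑ i ∈ Finset.range m, ((hlin H (f i)).smulRight (e' i) + (hlin H (e i)).smulRight (f' i)) +
    (hlin H g).smulRight g'

theorem sysMap_apply (e f : ℕ → Vec n F) (g : Vec n F) (m : ℕ) (e' f' : ℕ → Vec n F) (g' x : Vec n F) :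
    sysMap H e f g m e' f' g' x =
      ∑ i ∈ Finset.range m, (h x (f i) • e' i + h x (e i) • f' i) + h x g • g' := by
  simp [sysMap, hlin]

include H S

theorem sysMap_e {e' f' : ℕ → Vec n F} {g' : Vec n F} {j : ℕ} (hj : j < m) :
    sysMap H e f g m e' f' g' (e j) = e' j := by
  rw [sysMap_apply, S.eg, zero_smul, add_zero, Finset.sum_eq_single j]
  · rw [S.ef, S.ee, if_pos ⟨rfl, hj⟩]; simp
  · intro i _ hi; rw [S.ef, S.ee, if_neg (fun hh => hi hh.1.symm)]; simp
  · intro hh; simp at hh; omega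

theorem sysMap_f {e' f' : ℕ → Vec n F} {g' : Vec n F} {j : ℕ} (hj : j < m) :
    sysMap H e f g m e' f' g' (f j) = f' j := by
  rw [sysMap_apply, S.fg, zero_smul, add_zero, Finset.sum_eq_single j]
  · rw [S.fe, S.ff, if_pos ⟨rfl, hj⟩]; simp
  · intro i _ hi; rw [S.fe, S.ff, if_neg (fun hh => hi hh.1.symm)]; simp
  · intro hh; simp at hh; omega

theorem sysMap_g {e' f' : ℕ → Vec n F} {g' : Vec n F} : sysMap H e f g m e' f' g' g = g' := by
  rw [sysMap_apply, S.gg, one_smul, Finset.sum_eq_zero, zero_add]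
  intro i _; rw [S.ge, S.gf]; simp

variable (hspan : ⊤ ≤ Submodule.span F (Set.range e ∪ Set.range f ∪ {g}))
include hspan

theorem expand (x : Vec n F) : sysMap H e f g m e f g x = x := by
  have hx : x ∈ Submodule.span F (Set.range e ∪ Set.range f ∪ {g}) := hspan trivial
  induction hx using Submodule.span_induction with
  | mem y hy =>
    rcases hy with (⟨j, rfl⟩ | ⟨j, rfl⟩) | rfl
    · by_cases hj : j < m
      · exact sysMap_e H S hj
      · rw [S.e_out j (by omega), map_zero]
    · by_cases hj : j < m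
      · exact sysMap_f H S hj
      · rw [S.f_out j (by omega), map_zero]
    · exact sysMap_g H S
  | zero => rw [map_zero]
  | add a b _ _ ha hb => rw [map_add, ha, hb]
  | smul c a _ ha => rw [map_smul, ha]

theorem sysMap_iso {e' f' : ℕ → Vec n F} {g' : Vec n F} (S' : Sys h m e' f' g') (x y : Vec n F) :
    h (sysMap H e f g m e' f' g' x) (sysMap H e f g m e' f' g' y) = h x y := by
  set L := sysMap H e f g m e' f' g'
  have he : ∀ i, i < m → h (e' i) (L y) = h (e i) y := fun i hi => by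
    suffices h (L y) (e' i) = h y (e i) by rw [H.herm (e' i), this, ← H.herm]
    change hlin H (e' i) (L y) = _
    rw [sysMap_apply, map_add, map_sum, Finset.sum_eq_single i]
    · simp [hlin, H.add_left, H.smul_left, S'.ee, S'.fe, S'.ge, hi]
    · intro j _ hj; simp [hlin, H.add_left, H.smul_left, S'.ee, S'.fe, hj]
    · intro hh; simp at hh; omega
  have hf : ∀ i, i < m → h (f' i) (L y) = h (f i) y := fun i hi => by
    suffices h (L y) (f' i) = h y (f i) by rw [H.herm (f' i), this, ← H.herm]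
    change hlin H (f' i) (L y) = _
    rw [sysMap_apply, map_add, map_sum, Finset.sum_eq_single i]
    · simp [hlin, H.add_left, H.smul_left, S'.ff, S'.ef, S'.gf, hi]
    · intro j _ hj; simp [hlin, H.add_left, H.smul_left, S'.ff, S'.ef, hj]
    · intro hh; simp at hh; omega
  have hg : h g' (L y) = h g y := by
    suffices h (L y) g' = h y g by rw [H.herm g', this, ← H.herm]
    change hlin H g' (L y) = _
    rw [sysMap_apply, map_add, map_sum, Finset.sum_eq_zero]
    · simp [hlin, H.smul_left, S'.gg]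
    · intro j _; simp [hlin, H.add_left, H.smul_left, S'.eg, S'.fg]
  conv_rhs => rw [← expand H S hspan x]
  change hlin H (L y) (L x) = hlin H y _
  rw [show L x = _ from sysMap_apply H e f g m e' f' g' x, sysMap_apply H e f g m e f g x, map_add,
    map_add, map_sum, map_sum]
  refine congrArg₂ _ (Finset.sum_congr rfl fun i hi => ?_) ?_
  · simp [hlin, H.add_left, H.smul_left, he i (Finset.mem_range.1 hi), hf i (Finset.mem_range.1 hi)]
  · simp [hlin, H.smul_left, hg]

omit hspan
omit S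

/-- one elementary Levi step -/
noncomputable def step (σ : F ≃+* F) (h : Vec n F → Vec n F → F) (e f : ℕ → Vec n F) (i : ℕ) : GG n F :=
  ueE σ h (e i) (f (i + 1)) 1

omit H in
/-- the Levi part of the regular element -/
noncomputable def dd (σ : F ≃+* F) (h : Vec n F → Vec n F → F) (e f : ℕ → Vec n F) : ℕ → GG n F
  | 0 => 1
  | k + 1 => step σ h e f k * dd σ h e f k

/-- the regular element -/
noncomputable def uu (σ : F ≃+* F) (h : Vec n F → Vec n F → F) (m : ℕ) (e f : ℕ → Vec n F)
    (g : Vec n F) (c : F) : GG n F :=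
  usieg h (e (m - 1)) g c * dd σ h e f (m - 1)

include S

theorem step_ap (i : ℕ) (x : Vec n F) :
    ap (step σ h e f i) x = x + h x (f (i + 1)) • e i - h x (e i) • f (i + 1) := by
  rw [step, ap, ueE_mulVec H (S.ee i i) (S.ff _ _) (by rw [S.ef]; simp), map_one, one_mul, one_mul]

theorem step_mem (i : ℕ) : step σ h e f i ∈ isoH h ⊓ specialLinear (Fin n) F :=
  ueE_mem H (S.ee i i) (S.ff _ _) (by rw [S.ef]; simp) 1

theorem dd_mem : ∀ k, dd σ h e f k ∈ isoH h ⊓ specialLinear (Fin n) F
  | 0 => one_mem _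
  | k + 1 => mul_mem (step_mem H S k) (dd_mem k)

theorem dd_e : ∀ k, k < m → ∀ j,
    ap (dd σ h e f k) (e j) = if 1 ≤ j ∧ j ≤ k then e j + e (j - 1) else e j := by
  intro k
  induction k with
  | zero => intro _ j; rw [if_neg (by omega)]; simp [dd, ap]
  | succ k ih =>
    intro hk j
    rw [dd, ap_mul, ih (by omega)]
    have s1 : ∀ i, ap (step σ h e f k) (e i) = if i = k + 1 then e i + e k else e i := fun i => by
      rw [step_ap H S, S.ef, S.ee, zero_smul, sub_zero]
      by_cases hi : i = k + 1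
      · subst hi; rw [if_pos ⟨rfl, hk⟩, if_pos rfl, one_smul]
      · rw [if_neg (fun hh => hi hh.1), if_neg hi, zero_smul, add_zero]
    by_cases h1 : 1 ≤ j ∧ j ≤ k
    · rw [if_pos h1, if_pos ⟨h1.1, by omega⟩, ap_add, s1, s1, if_neg (by omega), if_neg (by omega)]
    · rw [if_neg h1, s1]
      by_cases h2 : j = k + 1
      · subst h2; rw [if_pos rfl, if_pos ⟨by omega, le_rfl⟩]; simp
      · rw [if_neg h2, if_neg (by omega)]

theorem dd_g : ∀ k, ap (dd σ h e f k) g = g := by
  intro k
  induction k with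
  | zero => simp [dd, ap]
  | succ k ih => rw [dd, ap_mul, ih, step_ap H S, S.gf, S.ge]; simp

theorem dd_f : ∀ k, k < m → (∀ j, j < k → ap (dd σ h e f k) (f j + f (j + 1)) = f j) ∧
    (∀ j, k ≤ j → ap (dd σ h e f k) (f j) = f j) := by
  intro k
  induction k with
  | zero => intro _; exact ⟨fun j hj => absurd hj (by omega), fun j _ => by simp [dd, ap]⟩
  | succ k ih =>
    intro hk
    obtain ⟨h1, h2⟩ := ih (by omega)
    have s1 : ∀ i, ap (step σ h e f k) (f i) = if i = k then f i - f (k + 1) else f i := fun i => by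
      rw [step_ap H S, S.fe, S.ff, zero_smul, add_zero]
      by_cases hi : i = k
      · subst hi; rw [if_pos ⟨rfl, by omega⟩, if_pos rfl, one_smul]
      · rw [if_neg (fun hh => hi hh.1), if_neg hi, zero_smul, sub_zero]
    refine ⟨fun j hj => ?_, fun j hj => ?_⟩
    · rw [dd, ap_mul]
      rcases Nat.lt_or_eq_of_le (Nat.le_of_lt_succ hj) with hj' | hj'
      · rw [h1 j hj', s1, if_neg (by omega)]
      · subst hj'
        rw [ap_add, h2 j le_rfl, h2 (j + 1) (by omega), ap_add, s1, s1, if_pos rfl, if_neg (by omega)]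
        abel
    · rw [dd, ap_mul, h2 j (by omega), s1, if_neg (by omega)]

variable {c : F}

theorem uu_mem (hc : c + σ c = -1) :
    uu σ h m e f g c ∈ isoH h ⊓ specialLinear (Fin n) F :=
  mul_mem (usieg_mem H (S.ee _ _) (S.eg _) (by rw [S.gg, hc, neg_add_cancel])) (dd_mem H S _)

theorem P_ap (y : Vec n F) :
    ap (usieg h (e (m - 1)) g c) y = y + (c * h y (e (m - 1)) + h y g) • e (m - 1) - h y (e (m - 1)) • g :=
  S_ap H (S.ee _ _) (S.eg _) c y

theorem uu_e0 (hm : 0 < m) : ap (uu σ h m e f g c) (e 0) = e 0 := by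
  rw [uu, ap_mul, dd_e H S _ (by omega), if_neg (by omega), P_ap H S, S.ee, S.eg]; simp

theorem uu_e (k : ℕ) (hk : k + 1 < m) : ap (uu σ h m e f g c) (e (k + 1)) = e (k + 1) + e k := by
  rw [uu, ap_mul, dd_e H S _ (by omega), if_pos ⟨by omega, by omega⟩, P_ap H S, Nat.add_sub_cancel]
  simp [H.add_left, S.ee, S.eg]

theorem uu_g : ap (uu σ h m e f g c) g = g + e (m - 1) := by
  rw [uu, ap_mul, dd_g H S, P_ap H S, S.ge, S.gg]; simp

theorem uu_f (k : ℕ) (hk : k + 1 < m) : ap (uu σ h m e f g c) (f k + f (k + 1)) = f k := by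
  rw [uu, ap_mul, (dd_f H S _ (by omega)).1 k (by omega), P_ap H S, S.fe, S.fg, if_neg (by omega)]; simp

theorem uu_fl (hm : 0 < m) :
    ap (uu σ h m e f g c) (f (m - 1)) = f (m - 1) + c • e (m - 1) - g := by
  rw [uu, ap_mul, (dd_f H S _ (by omega)).2 _ le_rfl, P_ap H S, S.fe, S.fg, if_pos ⟨rfl, by omega⟩]
  simp

theorem uu_inv_f (k : ℕ) (hk : k + 1 < m) : ap (uu σ h m e f g c)⁻¹ (f k) = f k + f (k + 1) :=
  ap_inv _ (uu_f H S k hk)

include hspan

theorem uu_regular (hm : 1 ≤ m) :
    IsNilpotent (((uu σ h m e f g c)⁻¹ : GG n F).val - 1) ∧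
      (((uu σ h m e f g c)⁻¹ : GG n F).val - 1) ^ (2 * m) ≠ 0 := by
  set ui : Matrix (Fin n) (Fin n) F := ((uu σ h m e f g c)⁻¹ : GG n F).val
  set N := ui - 1
  have hc' : Commute N ui := (Commute.refl ui).sub_left (Commute.one_left ui)
  have hN : ∀ x, N *ᵥ x = ui *ᵥ x - x := fun x => by simp [N, sub_mulVec]
  have he0 : ui *ᵥ e 0 = e 0 := ap_inv _ (uu_e0 H S (by omega))
  have hes : ∀ k, k + 1 < m → N *ᵥ e (k + 1) = -(ui *ᵥ e k) := by
    intro k hk
    have := ap_inv _ (uu_e H S (c := c) k hk)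
    change ui *ᵥ _ = _ at this
    rw [mulVec_add] at this
    rw [hN, sub_eq_iff_eq_add]
    conv_rhs => rw [← this]
    abel
  have hgs : N *ᵥ g = -(ui *ᵥ e (m - 1)) := by
    have := ap_inv _ (uu_g H S (c := c))
    change ui *ᵥ _ = _ at this
    rw [mulVec_add] at this
    rw [hN, sub_eq_iff_eq_add]
    conv_rhs => rw [← this]
    abel
  have hfl : N *ᵥ f (m - 1) = ui *ᵥ g - c • (ui *ᵥ e (m - 1)) := by
    have := ap_inv _ (uu_fl H S (c := c) (by omega))
    change ui *ᵥ _ = _ at this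
    rw [mulVec_sub, mulVec_add, mulVec_smul] at this
    rw [hN, sub_eq_iff_eq_add]
    conv_rhs => rw [← this]
    abel
  have hfs : ∀ k, k + 1 < m → N *ᵥ f k = f (k + 1) := fun k hk => by
    rw [hN]; change ap (uu σ h m e f g c)⁻¹ _ - _ = _; rw [uu_inv_f H S k hk, add_sub_cancel_left]
  have hE : ∀ j, j < m → (N ^ j) *ᵥ e j = (-1 : F) ^ j • e 0 ∧ (N ^ (j + 1)) *ᵥ e j = 0 := by
    intro j
    induction j with
    | zero => intro _; exact ⟨by simp, by rw [pow_one, hN, he0, sub_self]⟩
    | succ j ih =>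
      intro hj
      obtain ⟨h1, h2⟩ := ih (by omega)
      constructor
      · rw [pow_succ, ← mulVec_mulVec, hes j hj, mulVec_neg, mulVec_mulVec, (hc'.pow_left j).eq,
          ← mulVec_mulVec, h1, mulVec_smul, he0, pow_succ]
        simp
      · rw [pow_succ, ← mulVec_mulVec, hes j hj, mulVec_neg, mulVec_mulVec, (hc'.pow_left _).eq,
          ← mulVec_mulVec, h2, mulVec_zero, neg_zero]
  have hG : (N ^ m) *ᵥ g = -((-1 : F) ^ (m - 1) • e 0) := by
    rw [show N ^ m = N ^ (m - 1) * N by rw [← pow_succ]; congr 1; omega, ← mulVec_mulVec, hgs,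
      mulVec_neg, mulVec_mulVec, (hc'.pow_left _).eq, ← mulVec_mulVec, (hE _ (by omega)).1,
      mulVec_smul, he0]
  have hEl : (N ^ m) *ᵥ e (m - 1) = 0 := by
    have := (hE (m - 1) (by omega)).2
    rwa [show m - 1 + 1 = m by omega] at this
  have hlast : (N ^ (m + 1)) *ᵥ f (m - 1) = -((-1 : F) ^ (m - 1) • e 0) := by
    rw [pow_succ, ← mulVec_mulVec, hfl, mulVec_sub, mulVec_smul, mulVec_mulVec, (hc'.pow_left _).eq,
      ← mulVec_mulVec, hG, mulVec_neg, mulVec_smul, he0, mulVec_mulVec, (hc'.pow_left _).eq,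
      ← mulVec_mulVec, hEl, mulVec_zero, smul_zero, sub_zero]
  have hF : ∀ i, i < m → (N ^ i) *ᵥ f (m - 1 - i) = f (m - 1) := by
    intro i
    induction i with
    | zero => intro _; simp
    | succ i ih =>
      intro hi
      rw [pow_succ, ← mulVec_mulVec, hfs _ (by omega), show m - 1 - (i + 1) + 1 = m - 1 - i by omega]
      exact ih (by omega)
  have hz : ∀ j, (N ^ (j + 1)) *ᵥ e 0 = 0 := fun j => by
    rw [pow_succ, ← mulVec_mulVec, hN, he0, sub_self, mulVec_zero]
  constructor
  · refine ⟨2 * m + 1, ?_⟩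
    have key : ∀ x ∈ Submodule.span F (Set.range e ∪ Set.range f ∪ {g}), (N ^ (2 * m + 1)) *ᵥ x = 0 := by
      intro x hx
      induction hx using Submodule.span_induction with
      | mem y hy =>
        rcases hy with (⟨j, rfl⟩ | ⟨j, rfl⟩) | rfl
        · by_cases hj : j < m
          · rw [show 2 * m + 1 = 2 * m - j + (j + 1) by omega, pow_add, ← mulVec_mulVec, (hE j hj).2,
              mulVec_zero]
          · rw [S.e_out j (by omega), mulVec_zero]
        · by_cases hj : j < m
          · have hjm : m - 1 - (m - 1 - j) = j := by omega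
            have := hF (m - 1 - j) (by omega)
            rw [hjm] at this
            rw [show 2 * m + 1 = (j + 1) + (m + 1) + (m - 1 - j) by omega, pow_add, ← mulVec_mulVec,
              this, pow_add, ← mulVec_mulVec, hlast, mulVec_neg, mulVec_smul, hz, smul_zero, neg_zero]
          · rw [S.f_out j (by omega), mulVec_zero]
        · rw [show 2 * m + 1 = m + 1 + m by omega, pow_add, ← mulVec_mulVec, hG, mulVec_neg, mulVec_smul,
            hz, smul_zero, neg_zero]
      | zero => rw [mulVec_zero]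
      | add a b _ _ ha hb => rw [mulVec_add, ha, hb, add_zero]
      | smul r a _ ha => rw [mulVec_smul, ha, smul_zero]
    exact Matrix.ext_of_mulVec_single fun i => by rw [zero_mulVec]; exact key _ (hspan trivial)
  · intro h0
    have := hF (m - 1) (by omega)
    rw [Nat.sub_self] at this
    have h1 : (N ^ (2 * m)) *ᵥ f 0 = -((-1 : F) ^ (m - 1) • e 0) := by
      rw [show 2 * m = (m + 1) + (m - 1) by omega, pow_add, ← mulVec_mulVec, this, hlast]
    rw [h0, zero_mulVec, eq_comm, neg_eq_zero, smul_eq_zero] at h1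
    have he : e 0 ≠ 0 := fun hh => by
      have h3 := S.ef 0 0
      rw [hh, if_pos ⟨rfl, by omega⟩, herm_zero_left H] at h3
      exact zero_ne_one h3
    exact he (h1.resolve_left (pow_ne_zero _ (by simp)))

/-- a submodule containing all `e i`, `g` and `f i` for `i ≥ 1` contains `e₀⊥` -/
theorem perp_le (P : Submodule F (Vec n F)) (hE : ∀ i, e i ∈ P) (hg : g ∈ P)
    (hf : ∀ i, 1 ≤ i → i < m → f i ∈ P) : ∀ x, h x (e 0) = 0 → x ∈ P := by
  intro x hx
  rw [← expand H S hspan x, sysMap_apply]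
  refine P.add_mem (P.sum_mem fun i hi => P.add_mem (P.smul_mem _ (hE i)) ?_) (P.smul_mem _ hg)
  rcases Nat.eq_zero_or_pos i with rfl | hi0
  · rw [hx, zero_smul]; exact P.zero_mem
  · exact P.smul_mem _ (hf i hi0 (Finset.mem_range.1 hi))

end Cfsg.Agent.Lib.SURegGen
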