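import Cfsg.Agent.Lib.SURegGen.Frame

/-!
Three conjugates of a regular unipotent element generate a unitary group of odd dimension at least 5.
-/

set_option autoImplicit false

namespace Cfsg.Agent.Lib.SURegGen

open Matrix Cfsg.Geo Cfsg.Agent.Lib.Forms

variable {F : Type*} [Field F] {n : ℕ} {σ : F ≃+* F} {h : Vec n F → Vec n F → F}
  (H : IsUnitaryForm σ h) {m : ℕ} {e f : ℕ → Vec n F} {g : Vec n F} (S : Sys h m e f g)
  {c : F} {M : Subgroup (GG n F)}

local notation "uA" => uu σ h m e f g c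

theorem conj_ap (u w : GG n F) {p q : Vec n F} (hw : ap w p = q) :
    ap (w * u * w⁻¹) q = ap w (ap u p) := by
  rw [ap_mul, ap_mul, ap_inv w hw]

include H S

theorem start (hm : 1 < m) (hc : c + σ c = -1) {ω cω : F} (hcω : cω + σ cω + ω * σ ω = 0)
    (hu : uA ∈ M) (hg : usieg h (e 0) (ω • g) cω * uA * (usieg h (e 0) (ω • g) cω)⁻¹ ∈ M) :
    SG σ h (e 0) M ((-ω) • e (m - 1)) 0 := by
  have hu' := (uu_mem H S hc).1
  have he := S.ee 0 0
  have hx : h (e 0) (ω • g) = 0 := by rw [herm_smul_right H, S.eg, mul_zero]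
  set G := usieg h (e 0) (ω • g) cω
  set y := ap uA (ω • g) with hy
  have hye : h (e 0) y = 0 := by
    conv_lhs => rw [← uu_e0 H S (c := c) (by omega)]
    rw [h_ap H hu']; exact hx
  have h1 : G * uA * G⁻¹ * uA⁻¹ = G * (uA * G * uA⁻¹)⁻¹ := by group
  have h2 := mul_mem hg (inv_mem hu)
  rw [h1, S_conj H hu' he hx, uu_e0 H S (by omega)] at h2
  have hye' : h (e 0) (-y) = 0 := by rw [herm_neg_right H, hye, neg_zero]
  have hinv : (usieg h (e 0) y cω)⁻¹ = usieg h (e 0) (-y) (-cω - h y y) := by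
    refine inv_eq_of_mul_eq_one_right ?_
    rw [S_mul H he hye hye', add_neg_cancel, herm_neg_left H,
      show cω + (-cω - h y y) - -h y y = 0 by ring]
    refine ext_ap fun v => ?_
    rw [S_ap H he (herm_zero_right H _), herm_zero_right H, ap_one]; simp
  rw [hinv, S_mul H he hx hye'] at h2
  have key : ω • g + -y = (-ω) • e (m - 1) := by
    rw [hy, ap_smul, uu_g H S]; module
  have kc : cω + (-cω - h y y) - h (-y) (ω • g) = 0 := by
    rw [herm_neg_left H, show h y y = h (ω • g) (ω • g) by rw [hy, h_ap H hu'], hy, ap_smul, uu_g H S]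
    simp only [H.smul_left, herm_smul_right H, H.add_left, S.gg, S.eg]
    ring
  rw [key, kc] at h2
  exact ⟨by rw [herm_smul_right H, S.ee, mul_zero], by simp [H.smul_left, herm_smul_right H, S.ee, herm_neg_left H, herm_neg_right H], h2⟩

variable (hspan : ⊤ ≤ Submodule.span F (Set.range e ∪ Set.range f ∪ {g}))
include hspan

/-- The case `m ≥ 3`. -/
theorem gen_big [Fintype F] (hn : 4 ≤ n) (hm : 3 ≤ m) (hc : c + σ c = -1) {ζ : F} (hζ0 : ζ ≠ 0)
    (hζ : ∀ a : F, a ≠ 0 → ∃ k : ℕ, a = ζ ^ k)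
    {w : GG n F} (hw : w ∈ isoH h) {δ : F}
    (wE : ∀ k, k + 2 < m → ap w (e k) = e (k + 2)) (wF : ∀ k, k + 2 < m → ap w (f k) = f (k + 2))
    (wE2 : ap w (e (m - 2)) = e 0) (wF2 : ap w (f (m - 2)) = f 0)
    (wE1 : ap w (e (m - 1)) = f 1) (wF1 : ap w (f (m - 1)) = e 1) (wG : ap w g = δ • g) :
    ∃ gc ∈ isoH h ⊓ specialLinear (Fin n) F, ∀ M : Subgroup (GG n F), uA ∈ M →
      gc * uA * gc⁻¹ ∈ M → w * uA * w⁻¹ ∈ M → isoH h ⊓ specialLinear (Fin n) F ≤ M := by
  have hui := (uu_mem H S hc).1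
  have he := S.ee 0 0
  have hc0 : c ≠ 0 := by rintro rfl; simp at hc
  have hσc : σ c ≠ 0 := by simpa using hc0
  set ω : F := -(σ ζ / c) with hω
  obtain ⟨cω, hcω'⟩ := exists_trace_eq H (a := -(ω * σ ω)) (by rw [map_neg, map_mul, H.involutive, mul_comm])
  have hcω : cω + σ cω + ω * σ ω = 0 := by rw [hcω', neg_add_cancel]
  refine ⟨usieg h (e 0) (ω • g) cω, usieg_mem H he (by rw [herm_smul_right H, S.eg, mul_zero]) (by
    rw [H.smul_left, herm_smul_right H, S.gg, mul_one]; exact hcω), fun M hu hg hv => ?_⟩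
  set v := w * uA * w⁻¹ with hvdef
  have hvi : v ∈ isoH h := mul_mem (mul_mem hw hui) (inv_mem hw)
  set a := e 0 + e (m - 1) with hadef
  set z := e 1 + c • f 1 - δ • g with hzdef
  have vE0 : ap v (e 0) = a := by
    rw [hvdef, conj_ap _ w wE2, show m - 2 = m - 3 + 1 by omega, uu_e H S _ (by omega), ap_add,
      show m - 3 + 1 = m - 2 by omega, wE2, wE _ (by omega), show m - 3 + 2 = m - 1 by omega]
  have vE1 : ap v (e 1) = z := by
    rw [hvdef, conj_ap _ w wF1, uu_fl H S (by omega), ap_sub, ap_add, ap_smul, wF1, wE1, wG]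
  have vFl : ap v (f (m - 1)) = f (m - 1) - f 0 + z := by
    have h0 := wF (m - 3) (by omega)
    rw [show m - 3 + 2 = m - 1 by omega] at h0
    have h3 := uu_f H S (c := c) (m - 3) (by omega)
    have h2 := uu_f H S (c := c) (m - 2) (by omega)
    rw [show m - 3 + 1 = m - 2 by omega, ap_add] at h3
    rw [show m - 2 + 1 = m - 1 by omega, ap_add, uu_fl H S (by omega)] at h2
    rw [hvdef, conj_ap _ w h0, eq_sub_of_add_eq h3, eq_sub_of_add_eq h2]
    simp only [ap_sub, ap_add, ap_smul, h0, wF2, wF1, wE1, wG, hzdef]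
    abel
  have hzz : ∀ k, h (e k) z = if k = 1 then σ c else 0 := fun k => by
    rw [hzdef, herm_sub_right H, herm_add_right H, herm_smul_right H, herm_smul_right H, S.ee, S.ef,
      S.eg]
    by_cases hk : k = 1
    · subst hk; rw [if_pos ⟨rfl, by omega⟩, if_pos rfl]; ring
    · rw [if_neg (fun hh => hk hh.1), if_neg hk]; ring
  -- scalars
  have down : ∀ (t : F) (d : F) (k : ℕ), k + 1 < m → SG σ h (e 0) M (t • e (k + 1)) d →
      SG σ h (e 0) M (t • e k) 0 := by
    intro t d k hk hh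
    have := SG.diff H he hu hui (uu_e0 H S (by omega)) hh
    rw [ap_smul, uu_e H S k hk, smul_add, add_sub_cancel_left, herm_smul_right H, H.smul_left, S.ee,
      mul_zero, mul_zero] at this
    exact this
  have descend : ∀ (t : F) (k d : ℕ), k + d < m → SG σ h (e 0) M (t • e (k + d)) 0 →
      SG σ h (e 0) M (t • e k) 0 := by
    intro t k d
    induction d with
    | zero => intro _ hh; simpa using hh
    | succ d ih => intro hk hh; exact ih (by omega) (down t 0 _ (by omega) hh)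
  set t₀ : F := σ ζ / c with ht₀
  have hωt : -ω = t₀ := by rw [hω, neg_neg]
  have hK := start H S (by omega) hc hcω hu hg
  rw [hωt] at hK
  have ht1 : SG σ h (e 0) M (t₀ • e 1) 0 :=
    descend t₀ 1 (m - 2) (by omega) (by rwa [show 1 + (m - 2) = m - 1 by omega])
  set Y := v * usieg h (e 0) (t₀ • e 1) 0 * v⁻¹
  have hY : Y ∈ M := mul_mem (mul_mem hv ht1.2.2) (inv_mem hv)
  have hYe : Y = usieg h a (t₀ • z) 0 := by
    rw [show Y = usieg h (ap v (e 0)) (ap v (t₀ • e 1)) 0 from S_conj H hvi he ht1.1 0, vE0, ap_smul, vE1]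
  have haa : h a a = 0 := by rw [← vE0, h_ap H hvi]; exact he
  have haz : h a (t₀ • z) = 0 := by
    rw [← vE0, ← vE1, ← ap_smul, h_ap H hvi]; exact ht1.1
  have hYi : Y ∈ isoH h := mul_mem (mul_mem hvi (usieg_mem H he ht1.1 ht1.2.1).1) (inv_mem hvi)
  have hY0 : ap Y (e 0) = e 0 := by
    rw [hYe, S_ap H haa haz, hadef, herm_add_right H, herm_smul_right H, S.ee, S.ee, hzz]; simp
  have loop : ∀ s : F, SG σ h (e 0) M (s • e 1) 0 → SG σ h (e 0) M ((ζ * s) • a) 0 := by
    intro s hs
    have := SG.diff H he hY hYi hY0 hs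
    have hval : ap Y (s • e 1) = s • e 1 + (ζ * s) • a := by
      rw [hYe, S_ap H haa haz]
      simp only [H.smul_left, herm_smul_right H, hadef, herm_add_right H, S.ee, hzz, if_true, mul_zero,
        add_zero, zero_smul, sub_zero, zero_add]
      congr 2
      rw [ht₀, map_div₀, H.involutive]
      field_simp
    rw [hval, add_sub_cancel_left] at this
    convert this using 1
    simp [hadef, H.smul_left, herm_smul_right H, herm_add_right H, S.ee]
  have toE : ∀ τ : F, SG σ h (e 0) M (τ • a) 0 → SG σ h (e 0) M (τ • e (m - 2)) 0 := by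
    intro τ hτ
    have := SG.diff H he hu hui (uu_e0 H S (by omega)) hτ
    have e1 : ap uA (τ • a) - τ • a = τ • e (m - 2) := by
      rw [ap_smul, hadef, ap_add, uu_e0 H S (by omega), show m - 1 = m - 2 + 1 by omega,
        uu_e H S _ (by omega)]
      module
    rw [e1] at this
    convert this using 1
    simp [hadef, H.smul_left, herm_smul_right H, H.add_left, S.ee]
  let Γ : AddSubgroup F :=
    { carrier := {t | SG σ h (e 0) M (t • e 1) 0}
      zero_mem' := by simpa using SG.zero (M := M) H he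
      add_mem' := fun {x y} hx hy => by
        have := SG.add H he hx hy
        simpa [← add_smul, H.smul_left, herm_smul_right H, S.ee] using this
      neg_mem' := fun {x} hx => by
        have := SG.neg H he hx
        simpa [H.smul_left, herm_smul_right H, S.ee] using this }
  have hΓ : ∀ t, t ∈ Γ := by
    have h1 : ∀ t ∈ Γ, ζ * t ∈ Γ := fun t ht => by
      have := toE _ (loop t ht)
      rw [show m - 2 = 1 + (m - 3) by omega] at this
      exact descend _ 1 (m - 3) (by omega) this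
    have hpow : ∀ k : ℕ, ζ ^ k * t₀ ∈ Γ := fun k => by
      induction k with
      | zero => rw [pow_zero, one_mul]; exact ht1
      | succ k ih => rw [pow_succ', mul_assoc]; exact h1 _ ih
    intro t
    by_cases ht : t = 0
    · subst ht; exact zero_mem Γ
    have ht0 : t₀ ≠ 0 := by rw [ht₀]; exact div_ne_zero (by simpa using hζ0) hc0
    obtain ⟨k, hk⟩ := hζ (t / t₀) (div_ne_zero ht ht0)
    have := hpow k
    rwa [← hk, div_mul_cancel₀ _ ht0] at this
  have hRa : ∀ τ : F, SG σ h (e 0) M (τ • a) 0 := fun τ => by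
    have := loop (τ / ζ) (hΓ _)
    rwa [mul_div_cancel₀ _ hζ0] at this
  have hEk : ∀ k, k + 1 < m → ∀ t : F, SG σ h (e 0) M (t • e k) 0 := fun k hk t => by
    have := toE t (hRa t)
    rw [show m - 2 = k + (m - 2 - k) by omega] at this
    exact descend t k _ (by omega) this
  have hA : ∀ d, d + σ d = 0 → SG σ h (e 0) M 0 d := fun d hd =>
    skew_of_lines H he (hEk 0 (by omega)) hd
  have hLE : ∀ k, e k ∈ lines H he M := by
    intro k
    by_cases hk : k + 1 < m
    · exact fun t => ⟨_, hEk k hk t⟩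
    by_cases hk' : k < m
    · rw [show k = m - 1 by omega, show e (m - 1) = a - e 0 by rw [hadef, add_sub_cancel_left]]
      exact Submodule.sub_mem _ (fun t => ⟨_, hRa t⟩) (fun t => ⟨_, hEk 0 (by omega) t⟩)
    · rw [S.e_out k (by omega)]; exact Submodule.zero_mem _
  -- leaving the span of the `e`s
  obtain ⟨j, hj⟩ : ∃ j : ℕ, h (e 1) (ap v (ap (uA ^ j) a)) ≠ 0 := by
    by_contra! hh
    have hd : ∀ d, d + 2 ≤ m → ∀ j, h (e 1) (ap v (ap (uA ^ j) (e (m - 2 - d)))) = 0 := by
      intro d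
      induction d with
      | zero =>
        intro _ j
        have h1 : e (m - 2 - 0) = ap uA a - a := by
          rw [hadef, ap_add, uu_e0 H S (by omega), show m - 1 = m - 2 + 1 by omega,
            uu_e H S _ (by omega), Nat.sub_zero]
          abel
        rw [h1, ap_sub, ap_sub, herm_sub_right H, hh j, ← ap_mul (uA ^ j) uA, ← pow_succ, hh (j + 1),
          sub_zero]
      | succ d ih =>
        intro hd j
        have h1 : e (m - 2 - (d + 1)) = ap uA (e (m - 2 - d)) - e (m - 2 - d) := by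
          rw [show m - 2 - d = m - 2 - (d + 1) + 1 by omega, uu_e H S _ (by omega)]; abel
        rw [h1, ap_sub, ap_sub, herm_sub_right H, ih (by omega) j, ← ap_mul (uA ^ j) uA, ← pow_succ,
          ih (by omega) (j + 1), sub_zero]
    have := hd (m - 3) (by omega) 0
    rw [show m - 2 - (m - 3) = 1 by omega, pow_zero, ap_one, vE1, hzz, if_pos rfl] at this
    exact hσc this
  set SE : Submodule F (Vec n F) := Submodule.span F (Set.range e) with hSE
  have hm' : ∀ i, e i ∈ SE := fun i => Submodule.subset_span ⟨i, rfl⟩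
  have hSu : ∀ x ∈ SE, ap uA x ∈ SE := by
    intro x hx
    induction hx using Submodule.span_induction with
    | mem y hy =>
      obtain ⟨k, rfl⟩ := hy
      by_cases hk : k < m
      · rcases Nat.eq_zero_or_pos k with rfl | hk0
        · rw [uu_e0 H S (by omega)]; exact hm' 0
        · rw [show k = k - 1 + 1 by omega, uu_e H S _ (by omega)]; exact add_mem (hm' _) (hm' _)
      · rw [S.e_out k (by omega), ap_zero]; exact zero_mem _
    | zero => rw [ap_zero]; exact zero_mem _
    | add x y _ _ hx hy => rw [ap_add]; exact add_mem hx hy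
    | smul r x _ hx => rw [ap_smul]; exact SE.smul_mem r hx
  set zz := c • f 1 - δ • g with hzzdef
  have hvE : ∀ x ∈ SE, ∃ s ∈ SE, ∃ r : F, ap v x = s + r • zz := by
    intro x hx
    induction hx using Submodule.span_induction with
    | mem y hy =>
      obtain ⟨k, rfl⟩ := hy
      by_cases hk : k < m
      · match k, hk with
        | 0, _ => exact ⟨a, add_mem (hm' _) (hm' _), 0, by rw [vE0, zero_smul, add_zero]⟩
        | 1, _ => exact ⟨e 1, hm' _, 1, by rw [vE1, hzdef, hzzdef, one_smul]; abel⟩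
        | 2, hk => exact ⟨e 2, hm' _, 0, by
            rw [hvdef, conj_ap _ w (wE 0 (by omega)), uu_e0 H S (by omega), wE 0 (by omega), zero_smul,
              add_zero]⟩
        | k + 3, hk => exact ⟨e (k + 3) + e (k + 2), add_mem (hm' _) (hm' _), 0, by
            rw [hvdef, conj_ap _ w (wE (k + 1) (by omega)), uu_e H S k (by omega), ap_add,
              wE _ (by omega), wE _ (by omega), zero_smul, add_zero]⟩
      · exact ⟨0, zero_mem _, 0, by rw [S.e_out k (by omega), ap_zero, zero_smul, add_zero]⟩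
    | zero => exact ⟨0, zero_mem _, 0, by rw [ap_zero, zero_smul, add_zero]⟩
    | add x y _ _ hx hy =>
      obtain ⟨s, hs, r, hr⟩ := hx; obtain ⟨t, ht, d, hd⟩ := hy
      exact ⟨s + t, add_mem hs ht, r + d, by rw [ap_add, hr, hd]; module⟩
    | smul q x _ hx =>
      obtain ⟨s, hs, r, hr⟩ := hx
      exact ⟨q • s, SE.smul_mem q hs, q * r, by rw [ap_smul, hr]; module⟩
  have hSl : SE ≤ lines H he M := Submodule.span_le.2 (by rintro _ ⟨k, rfl⟩; exact hLE k)
  have hSee : ∀ i, ∀ x ∈ SE, h (e i) x = 0 := by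
    intro i x hx
    induction hx using Submodule.span_induction with
    | mem y hy => obtain ⟨k, rfl⟩ := hy; exact S.ee _ _
    | zero => exact herm_zero_right H _
    | add x y _ _ hx hy => rw [herm_add_right H, hx, hy, add_zero]
    | smul r x _ hx => rw [herm_smul_right H, hx, mul_zero]
  have hpowS : ∀ i, ap (uA ^ i) a ∈ SE := by
    intro i
    induction i with
    | zero => rw [pow_zero, ap_one]; exact add_mem (hm' _) (hm' _)
    | succ i ih => rw [pow_succ', ap_mul]; exact hSu _ ih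
  obtain ⟨s, hs, r, hr⟩ := hvE _ (hpowS j)
  set b := s + r • zz with hb
  have hzz1 : ∀ k, h (e k) zz = if k = 1 then σ c else 0 := fun k => by
    rw [← hzz k, hzzdef, hzdef, herm_sub_right H, herm_sub_right H, herm_add_right H, S.ee, zero_add]
  have hb0 : h (e 0) b = 0 := by
    rw [hb, herm_add_right H, herm_smul_right H, hSee 0 s hs, hzz1, if_neg (by omega)]; simp
  have hg3 : ap (v * uA ^ j * v) (e 0) = b := by rw [ap_mul, ap_mul, vE0, hr]
  have hgM : v * uA ^ j * v ∈ M := mul_mem (mul_mem hv (pow_mem hu j)) hv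
  have hgI : v * uA ^ j * v ∈ isoH h := mul_mem (mul_mem hvi (pow_mem hui j)) hvi
  obtain ⟨κ, hκ0, hκ⟩ := exists_skew H
  have hbb : h b b = 0 := by rw [← hg3, h_ap H hgI]; exact he
  have hTb : tv b (κ • Cfsg.Agent.Lib.Forms.hv h b) ∈ M := by
    have h0 : e 0 ∈ ucentres σ h M := ⟨he, fun d hd => by rw [← S_zero_eq H he]; exact (hA d hd).2.2⟩
    have := mulVec_mem_ucentres H hgM hgI h0
    rw [show ((v * uA ^ j * v : GG n F) : Matrix (Fin n) (Fin n) F) *ᵥ e 0 = b from hg3] at this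
    exact this.2 κ hκ
  have hTap : ∀ x, ap (tv b (κ • Cfsg.Agent.Lib.Forms.hv h b)) x = x + (κ * h x b) • b := fun x => utv_mulVec H hbb κ x
  rw [hr] at hj
  have hbL : b ∈ lines H he M := by
    intro t
    have := SG.diff H he hTb (fun x y => utv_isometry H hbb hκ x y)
      (by rw [hTap, hb0, mul_zero, zero_smul, add_zero])
      (hEk 1 (by omega) (t / (κ * h (e 1) b)))
    rw [hTap, add_sub_cancel_left, H.smul_left,
      show κ * (t / (κ * h (e 1) b) * h (e 1) b) = t by field_simp] at this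
    exact ⟨_, this⟩
  have hr0 : r ≠ 0 := by
    rintro rfl
    apply hj
    rw [hb, zero_smul, add_zero]; exact hSee 1 s hs
  have hzzL : zz ∈ lines H he M := by
    have h1 := Submodule.sub_mem _ hbL (hSl hs)
    rw [hb, add_sub_cancel_left] at h1
    have := (lines H he M).smul_mem r⁻¹ h1
    rwa [inv_smul_smul₀ hr0] at this
  set L := lines H he M
  have hLu : ∀ x ∈ L, ap uA x ∈ L := fun x hx => lines_ap H he hu hui (uu_e0 H S (by omega)) hx
  have hLu' : ∀ x ∈ L, ap (uA)⁻¹ x ∈ L := fun x hx =>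
    lines_ap H he (inv_mem hu) (inv_mem hui) (ap_inv _ (uu_e0 H S (by omega))) hx
  have hf2 : f 2 ∈ L := by
    have h1 := L.sub_mem (hLu' _ hzzL) hzzL
    have hg' : ap (uA)⁻¹ g = g - ap (uA)⁻¹ (e (m - 1)) := by
      have := ap_inv _ (uu_g H S (c := c))
      rw [ap_add] at this
      exact eq_sub_of_add_eq this
    have h2 : ap (uA)⁻¹ zz - zz = c • f 2 + δ • ap (uA)⁻¹ (e (m - 1)) := by
      rw [hzzdef, ap_sub, ap_smul, ap_smul, uu_inv_f H S 1 (by omega), hg']
      module
    rw [h2] at h1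
    have h3 := L.sub_mem h1 (L.smul_mem δ (hLu' _ (hLE (m - 1))))
    rw [add_sub_cancel_right] at h3
    have := L.smul_mem c⁻¹ h3
    rwa [inv_smul_smul₀ hc0] at this
  have hfk : ∀ k, 2 ≤ k → k < m → f k ∈ L := by
    intro k
    induction k with
    | zero => omega
    | succ k ih =>
      intro hk hkm
      rcases Nat.lt_or_eq_of_le hk with hk' | hk'
      · have h1 := hLu' _ (ih (by omega) (by omega))
        rw [uu_inv_f H S k hkm] at h1
        simpa using L.sub_mem h1 (ih (by omega) (by omega))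
      · rw [← hk']; exact hf2
  have hgL : g ∈ L := by
    have h0 := hfk (m - 1) (by omega) (by omega)
    have h1 := L.sub_mem (hLu _ h0) h0
    rw [uu_fl H S (by omega)] at h1
    have := L.sub_mem (L.smul_mem c (hLE (m - 1))) h1
    convert this using 1
    abel
  have hf1L : f 1 ∈ L := by
    have h1 := L.add_mem hzzL (L.smul_mem δ hgL)
    rw [hzzdef, sub_add_cancel] at h1
    have := L.smul_mem c⁻¹ h1
    rwa [inv_smul_smul₀ hc0] at this
  have hL : ∀ x, h x (e 0) = 0 → x ∈ L := perp_le H S hspan L hLE hgL fun i hi him => by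
    rcases Nat.lt_or_eq_of_le hi with hi' | hi'
    · exact hfk i hi' him
    · rw [← hi']; exact hf1L
  refine iso_le H he hn hA hL ?_
  by_contra! hh
  set P := perpCore H (e 0) (M ⊓ isoH h)
  have hu1 : uA ∈ M ⊓ isoH h := ⟨hu, hui⟩
  have hv1 : v ∈ M ⊓ isoH h := ⟨hv, hvi⟩
  have heP : e 0 ∈ P := fun x hx => hh x hx.1 hx.2
  have haP : a ∈ P := vE0 ▸ perpCore_ap H hv1 heP
  have hlP : e (m - 1) ∈ P := by
    have := P.sub_mem haP heP
    rwa [hadef, add_sub_cancel_left] at this
  have hdown : ∀ i, i < m → e (m - 1 - i) ∈ P := by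
    intro i
    induction i with
    | zero => intro _; simpa using hlP
    | succ i ih =>
      intro hi
      have h1 := ih (by omega)
      rw [show m - 1 - i = m - 1 - (i + 1) + 1 by omega] at h1
      have h2 := perpCore_ap H hu1 h1
      rw [uu_e H S _ (by omega)] at h2
      simpa using P.sub_mem h2 h1
  have h1P : e 1 ∈ P := by
    have := hdown (m - 2) (by omega)
    rwa [show m - 1 - (m - 2) = 1 by omega] at this
  have hzzP : zz ∈ P := by
    have := P.sub_mem (perpCore_ap H hv1 h1P) h1P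
    rw [vE1] at this
    convert this using 1
    rw [hzdef, hzzdef]; abel
  have hf2P : f 2 ∈ P := by
    have h1 := P.sub_mem (perpCore_ap H (inv_mem hu1) hzzP) hzzP
    have hg' : ap (uA)⁻¹ g = g - ap (uA)⁻¹ (e (m - 1)) := by
      have := ap_inv _ (uu_g H S (c := c))
      rw [ap_add] at this
      exact eq_sub_of_add_eq this
    have h2 : ap (uA)⁻¹ zz - zz = c • f 2 + δ • ap (uA)⁻¹ (e (m - 1)) := by
      rw [hzzdef, ap_sub, ap_smul, ap_smul, uu_inv_f H S 1 (by omega), hg']
      module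
    rw [h2] at h1
    have h3 := P.sub_mem h1 (P.smul_mem δ (perpCore_ap H (inv_mem hu1) hlP))
    rw [add_sub_cancel_right] at h3
    have := P.smul_mem c⁻¹ h3
    rwa [inv_smul_smul₀ hc0] at this
  have hflP : ∀ i, i + 2 < m → f (i + 2) ∈ P := by
    intro i
    induction i with
    | zero => intro _; exact hf2P
    | succ i ih =>
      intro hi
      have h1 := perpCore_ap H (inv_mem hu1) (ih (by omega))
      rw [uu_inv_f H S (i + 2) (by omega)] at h1
      simpa using P.sub_mem h1 (ih (by omega))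
  have h0 := hflP (m - 3) (by omega)
  rw [show m - 3 + 2 = m - 1 by omega] at h0
  have hfin := h0 v hv1
  rw [vFl, H.add_left, herm_sub_left H, S.fe, S.fe, eq_zero_of_herm_self H ((hzz 0).trans (if_neg (by omega))),
    if_neg (by omega), if_pos ⟨rfl, by omega⟩] at hfin
  simp at hfin

/-- The case `m = 2`. -/
theorem gen_five [Fintype F] (hn : 4 ≤ n) (hm : m = 2) (hc : c + σ c = -1)
    {κ : F} (hκ0 : κ ≠ 0) (hκ : κ + σ κ = 0)
    (hκS : ∀ R : Subring F, κ ∈ R → ∀ a, σ a = a → a ∈ R)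
    {w : GG n F} (hw : w ∈ isoH h) {δ : F}
    (wE : ∀ k, k < 2 → ap w (e k) = f k) (wF : ∀ k, k < 2 → ap w (f k) = e k) (wG : ap w g = δ • g) :
    ∃ gc ∈ isoH h ⊓ specialLinear (Fin n) F, ∀ M : Subgroup (GG n F), uA ∈ M →
      gc * uA * gc⁻¹ ∈ M → w * uA * w⁻¹ ∈ M → isoH h ⊓ specialLinear (Fin n) F ≤ M := by
  subst hm
  set u := uu σ h 2 e f g c
  have hui : u ∈ isoH h := (uu_mem H S hc).1
  have he := S.ee 0 0
  have hc0 : c ≠ 0 := by rintro rfl; simp at hc
  have hσc : σ c ≠ 0 := by simpa using hc0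
  set K : F := -κ / (c * σ c) with hKdef
  have hK0 : K ≠ 0 := div_ne_zero (neg_ne_zero.2 hκ0) (mul_ne_zero hc0 hσc)
  have hKs : σ K = -K := by
    rw [hKdef, map_div₀, map_neg, map_mul, H.involutive, eq_neg_of_add_eq_zero_right hκ]
    field_simp
  obtain ⟨x₀, hx₀⟩ := exists_trace_eq H (a := (1 : F)) (map_one σ)
  set t₀ : F := K * x₀ with ht₀
  have htK : t₀ - σ t₀ = K := by rw [ht₀, map_mul, hKs]; linear_combination K * hx₀
  set ω : F := -t₀ with hω
  obtain ⟨cω, hcω'⟩ := exists_trace_eq H (a := -(ω * σ ω)) (by rw [map_neg, map_mul, H.involutive, mul_comm])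
  have hcω : cω + σ cω + ω * σ ω = 0 := by rw [hcω', neg_add_cancel]
  refine ⟨usieg h (e 0) (ω • g) cω, usieg_mem H he (by rw [herm_smul_right H, S.eg, mul_zero]) (by
    rw [H.smul_left, herm_smul_right H, S.gg, mul_one]; exact hcω), fun M hu hg hv => ?_⟩
  set v := w * u * w⁻¹ with hvdef
  have hvi : v ∈ isoH h := mul_mem (mul_mem hw hui) (inv_mem hw)
  set z := e 1 + c • f 1 - δ • g with hzdef
  have ue1 : ap u (e 1) = e 1 + e 0 := uu_e H S 0 (by norm_num)
  have uf1 : ap u (f 1) = f 1 + c • e 1 - g := uu_fl H S (by norm_num)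
  have ug : ap u g = g + e 1 := uu_g H S
  have ue0 : ap u (e 0) = e 0 := uu_e0 H S (by norm_num)
  have vE0 : ap v (e 0) = e 0 - z := by
    have h0 := uu_f H S (c := c) 0 (by norm_num)
    rw [zero_add, ap_add, uf1] at h0
    rw [hvdef, conj_ap _ w (wF 0 (by norm_num)), eq_sub_of_add_eq h0]
    simp only [ap_sub, ap_add, ap_smul, wF 0 (by norm_num), wF 1 (by norm_num), wE 1 (by norm_num), wG, hzdef]
  have vE1 : ap v (e 1) = z := by
    rw [hvdef, conj_ap _ w (wF 1 (by norm_num)), uf1, ap_sub, ap_add, ap_smul, wF 1 (by norm_num),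
      wE 1 (by norm_num), wG]
  have vF1 : ap v (f 1) = f 1 + f 0 := by
    rw [hvdef, conj_ap _ w (wE 1 (by norm_num)), ue1, ap_add, wE 1 (by norm_num), wE 0 (by norm_num)]
  have hz0 : h (e 0) z = 0 := by
    rw [hzdef, herm_sub_right H, herm_add_right H, herm_smul_right H, herm_smul_right H, S.ee, S.ef,
      S.eg, if_neg (by omega)]
    ring
  have hz1 : h (e 1) z = σ c := by
    rw [hzdef, herm_sub_right H, herm_add_right H, herm_smul_right H, herm_smul_right H, S.ee, S.ef,
      S.eg, if_pos ⟨rfl, by norm_num⟩]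
    ring
  have hzg : h g z = -σ δ := by
    rw [hzdef, herm_sub_right H, herm_add_right H, herm_smul_right H, herm_smul_right H, S.ge, S.gf,
      S.gg]
    ring
  have ht1 : SG σ h (e 0) M (t₀ • e 1) 0 := by
    have := start H S (by norm_num) hc hcω hu hg
    rwa [hω, neg_neg] at this
  set Y := v * usieg h (e 0) (t₀ • e 1) 0 * v⁻¹
  have hY : Y ∈ M := mul_mem (mul_mem hv ht1.2.2) (inv_mem hv)
  have hYe : Y = usieg h (e 0 - z) (t₀ • z) 0 := by
    rw [show Y = usieg h (ap v (e 0)) (ap v (t₀ • e 1)) 0 from S_conj H hvi he ht1.1 0, vE0, ap_smul, vE1]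
  have haa : h (e 0 - z) (e 0 - z) = 0 := by rw [← vE0, h_ap H hvi]; exact he
  have haz : h (e 0 - z) (t₀ • z) = 0 := by
    rw [← vE0, ← vE1, ← ap_smul, h_ap H hvi]; exact ht1.1
  have hYi : Y ∈ isoH h := mul_mem (mul_mem hvi (usieg_mem H he ht1.1 ht1.2.1).1) (inv_mem hvi)
  have hY0 : ap Y (e 0) = e 0 := by
    rw [hYe, S_ap H haa haz, herm_sub_right H, herm_smul_right H, S.ee, hz0]; simp
  have loop : ∀ y d, SG σ h (e 0) M y d → ∃ d', SG σ h (e 0) M ((h y z * K) • z) d' := by
    intro y d hy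
    have hye : h y (e 0) = 0 := eq_zero_of_herm_self H hy.1
    have := SG.diff H he hY hYi hY0 hy
    have hval : ap Y y - y = (h y z * K) • z + (σ t₀ * h y z) • e 0 := by
      rw [hYe, S_ap H haa haz, herm_sub_right H, herm_smul_right H, hye, ← htK]
      module
    rw [hval] at this
    exact ⟨_, SG.shift H he this⟩
  let Z : AddSubgroup F :=
    { carrier := {t | ∃ d, SG σ h (e 0) M (t • z) d}
      zero_mem' := ⟨0, by simpa using SG.zero (M := M) H he⟩
      add_mem' := fun {x y} ⟨d, hd⟩ ⟨d', hd'⟩ => ⟨_, by rw [add_smul]; exact SG.add H he hd hd'⟩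
      neg_mem' := fun {x} ⟨d, hd⟩ => ⟨_, by rw [neg_smul]; exact SG.neg H he hd⟩ }
  set z₁ := e 0 + (c * c - δ) • e 1 - c • g with hz₁
  set z₂ := (c * c - δ) • e 0 - c • e 1 with hz₂
  have du1 : ap u z - z = z₁ := by
    rw [hzdef, ap_sub, ap_add, ap_smul, ap_smul, ue1, uf1, ug, hz₁]; module
  have du2 : ap u z₁ - z₁ = z₂ := by
    rw [hz₁, ap_sub, ap_add, ap_smul, ap_smul, ue0, ue1, ug, hz₂]; module
  have du3 : ap u z₂ - z₂ = (-c) • e 0 := by
    rw [hz₂, ap_sub, ap_smul, ap_smul, ue0, ue1]; module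
  have d1 : ∀ t d, SG σ h (e 0) M (t • z) d → ∃ d', SG σ h (e 0) M (t • z₁) d' := fun t d hd => by
    have := SG.diff H he hu hui ue0 hd
    rw [ap_smul, ← smul_sub, du1] at this
    exact ⟨_, this⟩
  have d2 : ∀ t d, SG σ h (e 0) M (t • z₁) d → ∃ d', SG σ h (e 0) M (t • z₂) d' := fun t d hd => by
    have := SG.diff H he hu hui ue0 hd
    rw [ap_smul, ← smul_sub, du2] at this
    exact ⟨_, this⟩
  set θ : F := ((c * c - δ) * σ c + c * σ δ) * K with hθ
  have m1 : ∀ t ∈ Z, κ * t ∈ Z := by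
    rintro t ⟨d, hd⟩
    obtain ⟨d', hd'⟩ := d1 t d hd
    obtain ⟨d'', hd''⟩ := d2 t d' hd'
    obtain ⟨e', he'⟩ := loop _ _ hd''
    refine ⟨e', ?_⟩
    convert he' using 2
    rw [hz₂, H.smul_left, herm_sub_left H, H.smul_left, H.smul_left, hz0, hz1, hKdef]
    field_simp
    ring
  have m2 : ∀ t ∈ Z, θ * t ∈ Z := by
    rintro t ⟨d, hd⟩
    obtain ⟨d', hd'⟩ := d1 t d hd
    obtain ⟨e', he'⟩ := loop _ _ hd'
    refine ⟨e', ?_⟩
    convert he' using 2
    rw [hz₁, H.smul_left, herm_sub_left H, H.add_left, H.smul_left, H.smul_left, hz0, hz1, hzg, hθ]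
    ring
  let R : Subring F :=
    { carrier := {x | ∀ t ∈ Z, x * t ∈ Z}
      mul_mem' := fun {a b} ha hb t ht => by rw [mul_assoc]; exact ha _ (hb t ht)
      one_mem' := fun t ht => by rwa [one_mul]
      add_mem' := fun {a b} ha hb t ht => by rw [add_mul]; exact add_mem (ha t ht) (hb t ht)
      zero_mem' := fun t _ => by rw [zero_mul]; exact zero_mem Z
      neg_mem' := fun {a} ha t ht => by rw [neg_mul]; exact neg_mem (ha t ht) }
  have hθσ : θ - σ θ ≠ 0 := by
    have : θ - σ θ = (-(c * σ c)) * K := by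
      rw [hθ, map_mul, hKs, map_add, map_mul, map_mul, map_sub, map_mul, H.involutive, H.involutive]
      linear_combination (c * σ c * K) * hc
    rw [this]
    exact mul_ne_zero (neg_ne_zero.2 (mul_ne_zero hc0 hσc)) hK0
  have hR : ∀ x, x ∈ R := by
    intro x
    set b := (x - σ x) / (θ - σ θ)
    have hb : σ b = b := by
      simp only [b, map_div₀, map_sub, H.involutive]
      rw [← neg_sub x (σ x), ← neg_sub θ (σ θ), neg_div_neg_eq]
    have ha : σ (x - b * θ) = x - b * θ := by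
      rw [map_sub, map_mul, hb]
      have : b * (θ - σ θ) = x - σ x := div_mul_cancel₀ _ hθσ
      linear_combination this
    have h1 := R.add_mem (hκS R m1 _ ha) (R.mul_mem (hκS R m1 _ hb) (show θ ∈ R from m2))
    rwa [sub_add_cancel] at h1
  have hZ : ∀ t, t ∈ Z := by
    obtain ⟨d, hd⟩ := loop _ _ ht1
    rw [H.smul_left, hz1] at hd
    have h0 : t₀ * σ c * K ∈ Z := ⟨d, hd⟩
    have hne : t₀ * σ c * K ≠ 0 := by
      refine mul_ne_zero (mul_ne_zero ?_ hσc) hK0
      intro h'; rw [h', map_zero, sub_zero] at htK; exact hK0 htK.symm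
    intro t
    have := hR (t / (t₀ * σ c * K)) _ h0
    rwa [div_mul_cancel₀ _ hne] at this
  have hzL : z ∈ lines H he M := fun t => hZ t
  have hz1L : z₁ ∈ lines H he M := fun t => by obtain ⟨d, hd⟩ := hZ t; exact d1 t d hd
  have hz2L : z₂ ∈ lines H he M := fun t => by
    obtain ⟨d, hd⟩ := hZ t; obtain ⟨d', hd'⟩ := d1 t d hd; exact d2 t d' hd'
  have hE0 : ∀ t : F, SG σ h (e 0) M (t • e 0) 0 := fun t => by
    obtain ⟨d, hd⟩ := hz2L (t / -c)
    have := SG.diff H he hu hui ue0 hd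
    rw [ap_smul, ← smul_sub, du3, smul_smul, div_mul_cancel₀ _ (neg_ne_zero.2 hc0)] at this
    convert this using 1
    rw [hz₂, H.smul_left, herm_smul_right H, herm_sub_left H, H.smul_left, H.smul_left, S.ee, S.ee]
    ring
  set L := lines H he M
  have he0L : e 0 ∈ L := fun t => ⟨0, hE0 t⟩
  have he1L : e 1 ∈ L := by
    have := L.smul_mem c⁻¹ (L.sub_mem (L.smul_mem (c * c - δ) he0L) hz2L)
    rwa [hz₂, sub_sub_cancel, inv_smul_smul₀ hc0] at this
  have hgL : g ∈ L := by
    have := L.smul_mem c⁻¹ (L.sub_mem (L.add_mem he0L (L.smul_mem (c * c - δ) he1L)) hz1L)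
    rwa [hz₁, sub_sub_cancel, inv_smul_smul₀ hc0] at this
  have hf1L : f 1 ∈ L := by
    have := L.smul_mem c⁻¹ (L.add_mem (L.sub_mem hzL he1L) (L.smul_mem δ hgL))
    rwa [show z - e 1 + δ • g = c • f 1 by rw [hzdef]; abel, inv_smul_smul₀ hc0] at this
  have hLE : ∀ i, e i ∈ L := fun i => by
    match i with
    | 0 => exact he0L
    | 1 => exact he1L
    | i + 2 => rw [S.e_out _ (by omega)]; exact L.zero_mem
  have hL : ∀ x, h x (e 0) = 0 → x ∈ L := perp_le H S hspan L hLE hgL fun i hi him => by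
    rw [show i = 1 by omega]; exact hf1L
  refine iso_le H he hn (fun d hd => skew_of_lines H he hE0 hd) hL ?_
  by_contra! hh
  set P := perpCore H (e 0) (M ⊓ isoH h)
  have hu1 : u ∈ M ⊓ isoH h := ⟨hu, hui⟩
  have hv1 : v ∈ M ⊓ isoH h := ⟨hv, hvi⟩
  have heP : e 0 ∈ P := fun x hx => hh x hx.1 hx.2
  have hzP : z ∈ P := by
    have := P.sub_mem heP (perpCore_ap H hv1 heP)
    rwa [vE0, sub_sub_cancel] at this
  have hz1P : z₁ ∈ P := du1 ▸ P.sub_mem (perpCore_ap H hu1 hzP) hzP
  have hz2P : z₂ ∈ P := du2 ▸ P.sub_mem (perpCore_ap H hu1 hz1P) hz1P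
  have he1P : e 1 ∈ P := by
    have := P.smul_mem c⁻¹ (P.sub_mem (P.smul_mem (c * c - δ) heP) hz2P)
    rwa [hz₂, sub_sub_cancel, inv_smul_smul₀ hc0] at this
  have hgP : g ∈ P := by
    have := P.smul_mem c⁻¹ (P.sub_mem (P.add_mem heP (P.smul_mem (c * c - δ) he1P)) hz1P)
    rwa [hz₁, sub_sub_cancel, inv_smul_smul₀ hc0] at this
  have hf1P : f 1 ∈ P := by
    have := P.smul_mem c⁻¹ (P.add_mem (P.sub_mem hzP he1P) (P.smul_mem δ hgP))
    rwa [show z - e 1 + δ • g = c • f 1 by rw [hzdef]; abel, inv_smul_smul₀ hc0] at this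
  have hfin := hf1P v hv1
  rw [vF1, H.add_left, S.fe, S.fe, if_neg (by omega), if_pos ⟨rfl, by norm_num⟩, zero_add] at hfin
  exact one_ne_zero hfin

end Cfsg.Agent.Lib.SURegGen
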