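import Cfsg.Agent.Lib.SURegGen.Gen
import Cfsg.Agent.Lib.UnitaryConj

/-!
The standard frame of odd-dimensional standard unitary spaces, and the generation statement.
-/

set_option autoImplicit false

namespace Cfsg.Agent.Lib.SURegGen

open Matrix Cfsg.Geo Cfsg.Agent.Lib.Forms Cfsg.Agent.Lib.UnitaryConj Cfsg.Agent.Lib.Classical

variable {F : Type*} [Field F] [Fintype F] {q : ℕ} (hF : Fintype.card F = q ^ 2) {n : ℕ}

/-- standard basis vector, zero out of range -/
def ev (n : ℕ) (F : Type*) [Field F] (k : ℕ) : Vec n F := fun i => if (i : ℕ) = k then 1 else 0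

theorem ev_eq_single (i : Fin n) : ev n F i = Pi.single i 1 := by
  funext j; simp [ev, Pi.single_apply, Fin.ext_iff]

theorem ev_out {k : ℕ} (hk : n ≤ k) : ev n F k = 0 := by
  funext i; simp [ev, show (i : ℕ) ≠ k by omega]

include hF

theorem h_ev (i j : ℕ) : Cfsg.hermForm n F q (ev n F i) (ev n F j) = if i = j ∧ i < n then 1 else 0 := by
  have hq := Herm.two_le_q hF
  unfold Cfsg.hermForm ev
  by_cases hi : i < n
  · rw [Finset.sum_eq_single ⟨i, hi⟩]
    · by_cases hij : i = j
      · subst hij; simp [hi]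
      · simp [hij, show q ≠ 0 by omega]
    · intro b _ hb; simp [show (b : ℕ) ≠ i from fun hh => hb (Fin.ext hh)]
    · simp
  · rw [if_neg (fun hh => hi hh.2)]
    refine Finset.sum_eq_zero fun b _ => ?_
    simp [show (b : ℕ) ≠ i by omega]

omit hF

/-- isotropic vectors `e` -/
def fe (n : ℕ) (m : ℕ) (α : F) (i : ℕ) : Vec n F :=
  if i < m then ev n F (2 * i) + α • ev n F (2 * i + 1) else 0

/-- isotropic vectors `f` -/
def ff (n : ℕ) (m : ℕ) (α c : F) (i : ℕ) : Vec n F :=
  if i < m then ev n F (2 * i) + c • fe n m α i else 0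

include hF

theorem std_sys {m : ℕ} (hn : n = 2 * m + 1) {α c : F} (hα : α * conjQ hF α = -1)
    (hc : c + conjQ hF c = -1) :
    Sys (Cfsg.hermForm n F q) m (fe n m α) (ff n m α c) (ev n F (2 * m)) := by
  have H := isUnitary_hermForm hF n
  have E := h_ev hF (n := n)
  have lhe : ∀ i j, i < m → j < m → Cfsg.hermForm n F q (ev n F (2 * i)) (fe n m α j) = if i = j then 1 else 0 := by
    intro i j hi hj
    rw [fe, if_pos hj, herm_add_right H, herm_smul_right H, E, E,
      if_neg (c := 2 * i = 2 * j + 1 ∧ _) (by omega), mul_zero, add_zero]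
    by_cases h : i = j
    · rw [if_pos h, if_pos ⟨by omega, by omega⟩]
    · rw [if_neg h, if_neg (by omega)]
  have hel : ∀ i j, i < m → j < m → Cfsg.hermForm n F q (fe n m α j) (ev n F (2 * i)) = if j = i then 1 else 0 := by
    intro i j hi hj
    rw [H.herm, lhe i j hi hj]
    by_cases h : i = j <;> simp [h, eq_comm]
  have ee : ∀ i j, Cfsg.hermForm n F q (fe n m α i) (fe n m α j) = 0 := by
    intro i j
    unfold fe
    split_ifs with hi hj
    · simp only [H.add_left, H.smul_left, herm_add_right H, herm_smul_right H, E]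
      by_cases h : i = j
      · subst h
        rw [if_pos ⟨rfl, by omega⟩, if_neg (by omega), if_neg (by omega), if_pos ⟨rfl, by omega⟩]
        linear_combination hα
      · rw [if_neg (by omega), if_neg (by omega), if_neg (by omega), if_neg (by omega)]
        ring
    all_goals simp [herm_zero_left H, herm_zero_right H]
  have eg : ∀ i, Cfsg.hermForm n F q (fe n m α i) (ev n F (2 * m)) = 0 := by
    intro i
    unfold fe
    split_ifs with hi
    · rw [H.add_left, H.smul_left, E, E, if_neg (by omega), if_neg (by omega)]; ring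
    · exact herm_zero_left H _
  have ge : ∀ i, Cfsg.hermForm n F q (ev n F (2 * m)) (fe n m α i) = 0 :=
    fun i => eq_zero_of_herm_self H (eg i)
  have fg : ∀ i, Cfsg.hermForm n F q (ff n m α c i) (ev n F (2 * m)) = 0 := by
    intro i
    unfold ff
    split_ifs with hi
    · rw [H.add_left, H.smul_left, eg, E, if_neg (by omega)]; ring
    · exact herm_zero_left H _
  have ef : ∀ i j, Cfsg.hermForm n F q (fe n m α i) (ff n m α c j) = if i = j ∧ i < m then 1 else 0 := by
    intro i j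
    by_cases hj : j < m
    · by_cases hi : i < m
      · rw [ff, if_pos hj, herm_add_right H, herm_smul_right H, ee, mul_zero, add_zero, hel j i hj hi]
        simp [hi]
      · rw [if_neg (fun h => hi h.2), fe, if_neg hi, herm_zero_left H]
    · rw [ff, if_neg hj, herm_zero_right H, if_neg (by omega)]
  refine ⟨ee, ?_, ef, ?_, eg, ge, fg, fun i => eq_zero_of_herm_self H (fg i), ?_, fun i hi => ?_, fun i hi => ?_⟩
  · intro i j
    by_cases hi : i < m
    · by_cases hj : j < m
      · have hll : Cfsg.hermForm n F q (ev n F (2 * i)) (ev n F (2 * j)) = if i = j then 1 else 0 := by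
          rw [E]; by_cases h : i = j
          · rw [if_pos h, if_pos ⟨by omega, by omega⟩]
          · rw [if_neg h, if_neg (by omega)]
        rw [ff, ff, if_pos hi, if_pos hj]
        simp only [H.add_left, H.smul_left, herm_add_right H, herm_smul_right H, ee, lhe i j hi hj,
          hel j i hj hi, hll]
        by_cases h : i = j
        · subst h; simp; linear_combination hc
        · simp [h]
      · rw [ff.eq_def (i := j), if_neg hj, herm_zero_right H]
    · rw [ff, if_neg hi, herm_zero_left H]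
  · intro i j
    rw [H.herm, ef]
    by_cases h : i = j
    · subst h; split_ifs <;> simp
    · rw [if_neg (by tauto), if_neg (fun hh => h hh.1)]; simp
  · rw [E, if_pos ⟨rfl, by omega⟩]
  · rw [fe, if_neg (by omega)]
  · rw [ff, if_neg (by omega)]

theorem std_span {m : ℕ} (hn : n = 2 * m + 1) {α c : F} (hα : α * conjQ hF α = -1) :
    ⊤ ≤ Submodule.span F (Set.range (fe n m α) ∪ Set.range (ff n m α c) ∪ {ev n F (2 * m)}) := by
  set P := Submodule.span F (Set.range (fe n m α) ∪ Set.range (ff n m α c) ∪ {ev n F (2 * m)})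
  have he : ∀ i, fe n m α i ∈ P := fun i => Submodule.subset_span (Or.inl (Or.inl ⟨i, rfl⟩))
  have hf : ∀ i, ff n m α c i ∈ P := fun i => Submodule.subset_span (Or.inl (Or.inr ⟨i, rfl⟩))
  have hα0 : α ≠ 0 := fun h => by simp [h] at hα
  have hl : ∀ i, i < m → ev n F (2 * i) ∈ P := fun i hi => by
    have := P.sub_mem (hf i) (P.smul_mem c (he i))
    rwa [ff, if_pos hi, add_sub_cancel_right] at this
  have hk : ∀ k : Fin n, ev n F k ∈ P := by
    intro k
    have := k.2
    rcases Nat.even_or_odd' (k : ℕ) with ⟨i, hi | hi⟩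
    · rw [hi]
      by_cases h : i < m
      · exact hl i h
      · exact Submodule.subset_span (Or.inr (by rw [show i = m by omega]; rfl))
    · rw [hi]
      have h : i < m := by omega
      have := P.smul_mem α⁻¹ (P.sub_mem (he i) (hl i h))
      rwa [fe, if_pos h, add_sub_cancel_left, smul_smul, inv_mul_cancel₀ hα0, one_smul] at this
  intro x _
  rw [pi_eq_sum_univ' x]
  refine P.sum_mem fun i _ => P.smul_mem _ ?_
  rw [← ev_eq_single]; exact hk i

omit hF

section target

variable {σ : F ≃+* F} {h : Vec n F → Vec n F → F} (H : IsUnitaryForm σ h)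
  {m : ℕ} {e f : ℕ → Vec n F} {g : Vec n F}

/-- image of `e` -/
def bigE (m : ℕ) (e f : ℕ → Vec n F) (j : ℕ) : Vec n F :=
  if j + 2 < m then e (j + 2) else if j = m - 2 then e 0 else if j = m - 1 then f 1 else 0

omit [Fintype F] in
theorem sys_swap (S : Sys h m e f g) : Sys h m f e g :=
  ⟨S.ff, S.ee, S.fe, S.ef, S.fg, S.gf, S.eg, S.ge, S.gg, S.f_out, S.e_out⟩

omit [Fintype F] in
include H in
theorem sys_big (hm : 3 ≤ m) (S : Sys h m e f g) : Sys h m (bigE m e f) (bigE m f e) g := by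
  refine ⟨?_, ?_, ?_, ?_, ?_, ?_, ?_, ?_, S.gg, ?_, ?_⟩
  all_goals (intro i; first | intro j | skip)
  all_goals simp only [bigE]
  all_goals split_ifs
  all_goals first
    | rfl
    | omega
    | (simp [S.ee, S.ff, S.ef, S.fe, S.eg, S.ge, S.fg, S.gf, herm_zero_left H, herm_zero_right H] <;> omega)

end target

include hF

theorem exists_w {m : ℕ} {e f : ℕ → Vec n F} {g : Vec n F}
    (S : Sys (Cfsg.hermForm n F q) m e f g)
    (hspan : ⊤ ≤ Submodule.span F (Set.range e ∪ Set.range f ∪ {g})) {e' f' : ℕ → Vec n F}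
    (S' : Sys (Cfsg.hermForm n F q) m e' f' g) :
    ∃ w ∈ isoH (Cfsg.hermForm n F q) ⊓ specialLinear (Fin n) F, ∃ δ : F,
      (∀ i, i < m → ap w (e i) = e' i) ∧ (∀ i, i < m → ap w (f i) = f' i) ∧ ap w g = δ • g := by
  have H := isUnitary_hermForm hF n
  set σ := conjQ hF
  set h := Cfsg.hermForm n F q
  set L := sysMap H e f g m e' f' g
  have hiso : ∀ x y, h (L x) (L y) = h x y := sysMap_iso H S hspan S'
  set A := LinearMap.toMatrix' L
  have hA : ∀ x, A *ᵥ x = L x := fun x => LinearMap.toMatrix'_mulVec L x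
  have hinj : Function.Injective A.mulVec := by
    intro x y hxy
    rw [← sub_eq_zero]
    by_contra h0
    obtain ⟨⟨z, hz⟩, -⟩ := H.nondegenerate _ h0
    have hxy' : L (x - y) = 0 := by rw [map_sub, ← hA, ← hA, hxy, sub_self]
    apply hz
    rw [← hiso, hxy', herm_zero_right H]
  set G : GL (Fin n) F := (Matrix.mulVec_injective_iff_isUnit.1 hinj).unit
  have hGv : (G : Matrix (Fin n) (Fin n) F) = A := IsUnit.unit_spec _
  have hGi : G ∈ isoH h := fun x y => by rw [hGv, hA, hA]; exact hiso x y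
  have hd : qHom hF A.det * A.det = 1 := by
    have := congrArg Matrix.det ((mem_GU_iff hF G).1 hGi)
    rwa [hGv, Matrix.det_mul, Matrix.det_one, tstar, Matrix.det_transpose,
      show (A.map (qHom hF)).det = qHom hF A.det from (RingHom.map_det (qHom hF) A).symm] at this
  set d := A.det
  have hd0 : d ≠ 0 := fun hh => by rw [hh, mul_zero] at hd; exact zero_ne_one hd
  set a := d⁻¹ - 1
  set B : Matrix (Fin n) (Fin n) F := 1 + Matrix.vecMulVec g (a • hv h g)
  have hB : ∀ x, B *ᵥ x = x + (a * h x g) • g := fun x => by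
    rw [show B = 1 + Matrix.vecMulVec g (a • hv h g) from rfl, Matrix.add_mulVec, Matrix.one_mulVec,
      Matrix.vecMulVec_mulVec, op_smul_eq_smul, smul_dotProduct, hv_dot H, smul_eq_mul]
  have hBdet : B.det = d⁻¹ := by
    rw [show B = 1 + Matrix.vecMulVec g (a • hv h g) from rfl, Matrix.vecMulVec_eq Unit,
      Matrix.det_one_add_replicateCol_mul_replicateRow, smul_dotProduct, hv_dot H, S.gg, smul_eq_mul,
      mul_one]
    exact add_sub_cancel 1 d⁻¹
  have hBu : IsUnit B := (Matrix.isUnit_iff_isUnit_det B).2 (by rw [hBdet]; exact (isUnit_iff_ne_zero.2 (inv_ne_zero hd0)))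
  set K : GL (Fin n) F := hBu.unit
  have hKv : (K : Matrix (Fin n) (Fin n) F) = B := IsUnit.unit_spec _
  have hK : K ∈ isoH h := fun x y => by
    rw [hKv, hB, hB]
    simp only [H.add_left, H.smul_left, herm_add_right H, herm_smul_right H, S.gg]
    have hσd : σ d = d⁻¹ := eq_inv_of_mul_eq_one_left hd
    rw [map_mul, ← H.herm g y, map_sub, map_one, map_inv₀, hσd, inv_inv]
    linear_combination (h x g * h g y) * (mul_inv_cancel₀ hd0)
  refine ⟨G * K, ⟨mul_mem hGi hK, (mem_specialLinear _).2 ?_⟩, d⁻¹, fun i hi => ?_, fun i hi => ?_, ?_⟩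
  · rw [Units.val_mul, Matrix.det_mul, hGv, hKv, hBdet]; exact mul_inv_cancel₀ hd0
  · rw [ap, Units.val_mul, ← Matrix.mulVec_mulVec, hKv, hB, S.eg, mul_zero, zero_smul, add_zero, hGv, hA]
    exact sysMap_e H S hi
  · rw [ap, Units.val_mul, ← Matrix.mulVec_mulVec, hKv, hB, S.fg, mul_zero, zero_smul, add_zero, hGv, hA]
    exact sysMap_f H S hi
  · rw [ap, Units.val_mul, ← Matrix.mulVec_mulVec, hKv, hB, S.gg, mul_one, hGv, hA]
    rw [show g + a • g = d⁻¹ • g by simp [a, sub_smul], map_smul, sysMap_g H S]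

theorem exists_kappa : ∃ κ : F, κ ≠ 0 ∧ κ + conjQ hF κ = 0 ∧
    ∀ R : Subring F, κ ∈ R → ∀ a, conjQ hF a = a → a ∈ R := by
  have H := isUnitary_hermForm hF 1
  have hq := Herm.two_le_q hF
  classical
  obtain ⟨z, hz⟩ := IsCyclic.exists_generator (α := Fˣ)
  have hord : orderOf z = q ^ 2 - 1 := by
    rw [orderOf_eq_card_of_forall_mem_zpowers hz, Nat.card_eq_fintype_card, Fintype.card_units, hF]
  have hzq : (z : F) ^ (q ^ 2 - 1) = 1 := by rw [← hord, ← Units.val_pow_eq_pow_val, pow_orderOf_eq_one, Units.val_one]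
  have hsq : q ^ 2 = q * q := sq q
  have key : ∀ κ : F, (∃ i, (z : F) ^ (q + 1) = κ ^ i) → ∀ R : Subring F, κ ∈ R →
      ∀ a, conjQ hF a = a → a ∈ R := by
    rintro κ ⟨i, hi⟩ R hR a ha
    by_cases ha0 : a = 0
    · rw [ha0]; exact R.zero_mem
    obtain ⟨y, hy⟩ := exists_norm_eq H ha
    have hy0 : y ≠ 0 := fun h => ha0 (by rw [← hy, h, zero_mul])
    obtain ⟨k, hk⟩ := (mem_powers_iff_mem_zpowers).2 (hz (Units.mk0 y hy0))
    have hk' : y = (z : F) ^ k := by rw [← Units.val_pow_eq_pow_val]; exact (congrArg Units.val hk).symm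
    rw [← hy, conjQ_apply, ← pow_succ', hk', ← pow_mul, mul_comm, pow_mul, hi, ← pow_mul]
    exact R.pow_mem hR _
  rcases Nat.even_or_odd q with he | ho
  · refine ⟨(z : F) ^ (q + 1), pow_ne_zero _ z.ne_zero, ?_, key _ ⟨1, (pow_one _).symm⟩⟩
    rw [conjQ_apply, ← pow_mul, show (q + 1) * q = (q ^ 2 - 1) + (q + 1) by
      rw [hsq, add_mul, one_mul]; have : 4 ≤ q * q := Nat.mul_le_mul hq hq; omega, pow_add (z : F) (q ^ 2 - 1), hzq, one_mul]
    have h2 : (2 : F) = 0 := by
      have h := FiniteField.cast_card_eq_zero F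
      rw [hF] at h
      push_cast at h
      obtain ⟨r, rfl⟩ := he
      have : ((r : F) + r) = 0 := by simpa using h
      by_contra h2
      haveI : NeZero (2 : F) := ⟨h2⟩
      obtain ⟨p, hp⟩ := CharP.exists F
      obtain ⟨k, hpp, hk⟩ := FiniteField.card F p
      have h2p : 2 ∣ p ^ (k : ℕ) := by rw [← hk, hF]; exact Dvd.dvd.pow ⟨r, by ring⟩ two_ne_zero
      have := (Nat.prime_dvd_prime_iff_eq Nat.prime_two hpp).1 (Nat.prime_two.dvd_of_dvd_pow h2p)
      subst this
      exact h2 (CharP.cast_eq_zero F 2)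
    linear_combination ((z : F) ^ (q + 1)) * h2
  · obtain ⟨N, hN⟩ := ho
    refine ⟨(z : F) ^ (N + 1), pow_ne_zero _ z.ne_zero, ?_, key _ ⟨2, by rw [← pow_mul]; congr 1; omega⟩⟩
    have hM : (N + 1) * q = (N + 1) + 2 * N * (N + 1) := by rw [hN]; ring
    have h4 : q ^ 2 - 1 = 2 * (2 * N * (N + 1)) := by
      rw [hN, show (2 * N + 1) ^ 2 = 2 * (2 * N * (N + 1)) + 1 by ring]; omega
    have hpos : 0 < 2 * N * (N + 1) := by
      have : 0 < N := by omega
      positivity
    have hm1 : (z : F) ^ (2 * N * (N + 1)) = -1 := by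
      refine (sq_eq_one_iff.1 ?_).resolve_left ?_
      · rw [← pow_mul, mul_comm, ← h4, hzq]
      · intro h1
        have : orderOf z ∣ 2 * N * (N + 1) := orderOf_dvd_of_pow_eq_one (Units.ext (by simpa using h1))
        rw [hord, h4] at this
        have := Nat.le_of_dvd hpos this
        omega
    rw [conjQ_apply, ← pow_mul, hM, pow_add (z : F) (N + 1) (2 * N * (N + 1)), hm1]
    ring

theorem exists_gen {m : ℕ} (hn : n = 2 * m + 1) (hm : 2 ≤ m) :
    ∃ u g w : GL (Fin n) F, u ∈ isoH (Cfsg.hermForm n F q) ⊓ specialLinear (Fin n) F ∧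
      g ∈ isoH (Cfsg.hermForm n F q) ⊓ specialLinear (Fin n) F ∧
      w ∈ isoH (Cfsg.hermForm n F q) ⊓ specialLinear (Fin n) F ∧
      IsNilpotent ((u⁻¹ : GL (Fin n) F).val - 1) ∧ ((u⁻¹ : GL (Fin n) F).val - 1) ^ (n - 1) ≠ 0 ∧
      ∀ M : Subgroup (GL (Fin n) F), u ∈ M → g * u * g⁻¹ ∈ M → w * u * w⁻¹ ∈ M →
        isoH (Cfsg.hermForm n F q) ⊓ specialLinear (Fin n) F ≤ M := by
  have H := isUnitary_hermForm hF n
  obtain ⟨α, hα⟩ := exists_norm_eq H (a := (-1 : F)) (by rw [map_neg, map_one])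
  obtain ⟨c, hc⟩ := exists_trace_eq H (a := (-1 : F)) (by rw [map_neg, map_one])
  have S := std_sys hF hn hα hc
  have hspan := std_span hF hn hα (c := c)
  have hu := uu_mem H S hc
  have hreg := uu_regular H S hspan (c := c) (by omega)
  rw [show n - 1 = 2 * m by omega]
  rcases Nat.lt_or_eq_of_le hm with hm3 | hm2
  · classical
    obtain ⟨z, hz⟩ := IsCyclic.exists_monoid_generator (α := Fˣ)
    obtain ⟨w, hw, δ, we, wf, wg⟩ := exists_w hF S hspan (sys_big H hm3 S)
    obtain ⟨gc, hgc, hgen⟩ := gen_big H S hspan (by omega) hm3 hc z.ne_zero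
      (fun a ha => by
        obtain ⟨k, hk⟩ := Submonoid.mem_powers_iff _ _ |>.1 (hz (Units.mk0 a ha))
        exact ⟨k, by rw [← Units.val_pow_eq_pow_val, hk]; rfl⟩)
      hw.1 (δ := δ)
      (fun k hk => by rw [we k (by omega), bigE, if_pos hk])
      (fun k hk => by rw [wf k (by omega), bigE, if_pos hk])
      (by rw [we _ (by omega), bigE, if_neg (by omega), if_pos rfl])
      (by rw [wf _ (by omega), bigE, if_neg (by omega), if_pos rfl])
      (by rw [we _ (by omega), bigE, if_neg (by omega), if_neg (by omega), if_pos rfl])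
      (by rw [wf _ (by omega), bigE, if_neg (by omega), if_neg (by omega), if_pos rfl])
      wg
    exact ⟨_, gc, w, hu, hgc, hw, hreg.1, hreg.2, hgen⟩
  · obtain ⟨κ, hκ0, hκ, hκS⟩ := exists_kappa hF
    obtain ⟨w, hw, δ, we, wf, wg⟩ := exists_w hF S hspan (sys_swap S)
    obtain ⟨gc, hgc, hgen⟩ := gen_five H S hspan (by omega) hm2.symm hc hκ0 hκ hκS
      hw.1 (δ := δ) (fun k hk => we k (by omega)) (fun k hk => wf k (by omega)) wg
    exact ⟨_, gc, w, hu, hgc, hw, hreg.1, hreg.2, hgen⟩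

theorem main {m : ℕ} (hn : n = 2 * m + 1) (hm : 2 ≤ m) :
    ∃ u g h : ↥(Cfsg.SU n F q),
      (IsNilpotent (((u : Matrix.SpecialLinearGroup (Fin n) F) : Matrix (Fin n) (Fin n) F) - 1) ∧
        (((u : Matrix.SpecialLinearGroup (Fin n) F) : Matrix (Fin n) (Fin n) F) - 1) ^ (n - 1) ≠ 0) ∧
      Subgroup.closure ({u, g * u * g⁻¹, h * u * h⁻¹} : Set ↥(Cfsg.SU n F q)) = ⊤ := by
  obtain ⟨u, g, w, hu, hg, hw, hnil, hreg, hgen⟩ := exists_gen hF hn hm
  let φ : ↥(Cfsg.SU n F q) →* GL (Fin n) F :=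
    Matrix.SpecialLinearGroup.toGL.comp (Cfsg.SU n F q).subtype
  have hφi : Function.Injective φ := fun a b hab =>
    Subtype.ext (Subtype.ext (congrArg Units.val hab))
  have lift : ∀ x ∈ isoH (Cfsg.hermForm n F q) ⊓ specialLinear (Fin n) F, ∃ y, φ y = x := fun x hx =>
    ⟨⟨⟨x.val, (mem_specialLinear _).1 hx.2⟩, hx.1⟩, Units.ext rfl⟩
  obtain ⟨U, hU⟩ := lift _ (inv_mem hu)
  obtain ⟨G, hG⟩ := lift _ hg
  obtain ⟨W, hW⟩ := lift _ hw
  have hval : ((U : Matrix.SpecialLinearGroup (Fin n) F) : Matrix (Fin n) (Fin n) F) =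
      ((u⁻¹ : GL (Fin n) F) : Matrix (Fin n) (Fin n) F) := congrArg Units.val hU
  refine ⟨U, G, W, by rw [hval]; exact ⟨hnil, hreg⟩, ?_⟩
  set C := Subgroup.closure ({U, G * U * G⁻¹, W * U * W⁻¹} : Set ↥(Cfsg.SU n F q))
  have hm' : ∀ x ∈ C, φ x ∈ C.map φ := fun x hx => ⟨x, hx, rfl⟩
  have key := hgen (C.map φ)
    (by
      have := hm' _ (inv_mem (Subgroup.subset_closure (show U ∈ _ by simp)))
      rwa [map_inv, hU, inv_inv] at this)
    (by
      have := hm' _ (inv_mem (Subgroup.subset_closure (show G * U * G⁻¹ ∈ _ by simp)))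
      simp only [map_inv, map_mul, hU, hG, _root_.mul_inv_rev, inv_inv, ← mul_assoc] at this
      exact this)
    (by
      have := hm' _ (inv_mem (Subgroup.subset_closure (show W * U * W⁻¹ ∈ _ by simp)))
      simp only [map_inv, map_mul, hU, hW, _root_.mul_inv_rev, inv_inv, ← mul_assoc] at this
      exact this)
  refine (Subgroup.eq_top_iff' C).2 fun x => ?_
  obtain ⟨y, hy, hxy⟩ := key (⟨x.2, (mem_specialLinear _).2 (x : Matrix.SpecialLinearGroup (Fin n) F).2⟩ :
    φ x ∈ isoH (Cfsg.hermForm n F q) ⊓ specialLinear (Fin n) F)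
  exact hφi hxy ▸ hy

end Cfsg.Agent.Lib.SURegGen
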